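import Cfsg.Agent.KO.Main

/-!
# The centralizer of an involution in an alternating group
-/

set_option autoImplicit false
set_option linter.unusedSectionVars false

namespace Cfsg.Agent.KO

open Subgroup Equiv W

section Act

variable {C : Type*}

instance : MulAction (W C) (C × ZMod 2) where
  smul w x := (w.s x.1, x.2 + w.e x.1)
  one_smul x := by
    change ((1 : W C).s x.1, x.2 + (1 : W C).e x.1) = x
    simp
  mul_smul a b x := by
    change ((a * b).s x.1, x.2 + (a * b).e x.1) =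
      (a.s (b.s x.1), x.2 + b.e x.1 + a.e (b.s x.1))
    simp [add_assoc]

/-- The permutation representation on `2 |C|` points. -/
def tp : W C →* Perm (C × ZMod 2) := MulAction.toPermHom (W C) (C × ZMod 2)

theorem tp_apply (w : W C) (x : C × ZMod 2) : tp w x = (w.s x.1, x.2 + w.e x.1) := rfl

theorem tp_injective : Function.Injective (tp : W C →* _) := by
  intro a b h
  have key : ∀ c, a.s c = b.s c ∧ a.e c = b.e c := by
    intro c
    have := congrArg (fun x : Perm (C × ZMod 2) => x (c, 0)) h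
    simpa [tp_apply] using this
  exact W.ext (funext fun c => (key c).2) (Equiv.ext fun c => (key c).1)

theorem tp_z_ne (x : C × ZMod 2) : tp z x ≠ x := by
  obtain ⟨c, x⟩ := x
  simp [tp_apply, z]

theorem exists_tp [Finite C] {x : Perm (C × ZMod 2)} (hx : x * tp z = tp z * x) :
    ∃ w, tp w = x := by
  have h1 : ∀ c, x (c, 1) = ((x (c, 0)).1, (x (c, 0)).2 + 1) := by
    intro c
    have := congrArg (fun y : Perm (C × ZMod 2) => y (c, 0)) hx
    simpa [tp_apply, z] using this
  have h2 : ∀ c a, x (c, a) = ((x (c, 0)).1, a + (x (c, 0)).2) := by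
    intro c a
    rcases zm_cases a with rfl | rfl
    · simp
    · rw [h1, add_comm]
  have h3 : Function.Injective fun c => (x (c, 0)).1 := by
    intro c d h
    have : x (c, (x (c, 0)).2) = x (d, (x (d, 0)).2) := by
      rw [h2 c (x (c, 0)).2, h2 d (x (d, 0)).2, zm_add_self, zm_add_self]
      exact Prod.ext h rfl
    exact congrArg Prod.fst (x.injective this)
  refine ⟨⟨fun c => (x (c, 0)).2, Equiv.ofBijective _ (Finite.injective_iff_bijective.mp h3)⟩, ?_⟩
  refine Equiv.ext ?_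
  rintro ⟨c, a⟩
  rw [h2 c a]
  rfl

end Act

theorem exists_theta (n r : ℕ) (α : Perm (Fin (4 * n + r))) (hα : α * α = 1)
    (hα4 : α.support.card = 4 * n) :
    ∃ Θ : W (Fin n × ZMod 2) × Perm (Fin r) →* Perm (Fin (4 * n + r)),
      Function.Injective Θ ∧ Θ (z, 1) = α ∧ (∀ x, x * α = α * x → x ∈ Θ.range) ∧
        ∀ w f, Perm.sign (Θ (w, f)) = Perm.sign (tp w) * Perm.sign f := by
  obtain ⟨e⟩ : Nonempty (((Fin n × ZMod 2) × ZMod 2) ⊕ Fin r ≃ Fin (4 * n + r)) := by
    rw [← Fintype.card_eq]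
    simp only [Fintype.card_sum, Fintype.card_prod, Fintype.card_fin, ZMod.card]
    ring
  let Φ : W (Fin n × ZMod 2) × Perm (Fin r) →* Perm (((Fin n × ZMod 2) × ZMod 2) ⊕ Fin r) :=
    (Perm.sumCongrHom _ _).comp (tp.prodMap (MonoidHom.id _))
  have hΦ : ∀ w f, Φ (w, f) = Perm.sumCongr (tp w) f := fun _ _ => rfl
  have hzz : (z : W (Fin n × ZMod 2)) * z = 1 := by ext c <;> simp [z, zm_add_self]
  have h1 : e.permCongrHom (Φ (z, 1)) * e.permCongrHom (Φ (z, 1)) = 1 := by
    rw [← map_mul, ← map_mul, Prod.mk_mul_mk, hzz, one_mul, Prod.mk_one_one, map_one, map_one]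
  have h2 : (e.permCongrHom (Φ (z, 1))).support.card = α.support.card := by
    have : (e.permCongrHom (Φ (z, 1))).support =
        (Finset.univ.map Function.Embedding.inl).map e.toEmbedding := by
      ext x
      obtain ⟨x, rfl⟩ := e.surjective x
      rcases x with x | x
      · simp [hΦ, tp_z_ne]
      · simp [hΦ]
    rw [this, Finset.card_map, Finset.card_map, hα4]
    simp only [Finset.card_univ, Fintype.card_prod, Fintype.card_fin, ZMod.card]
    ring
  obtain ⟨k, hk⟩ := isConj_iff.mp (isConj_of_card_support h1 hα h2)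
  let Ψ : Perm (((Fin n × ZMod 2) × ZMod 2) ⊕ Fin r) ≃* Perm (Fin (4 * n + r)) :=
    e.permCongrHom.trans (MulAut.conj k)
  have hΨ : Ψ (Φ (z, 1)) = α := hk
  refine ⟨Ψ.toMonoidHom.comp Φ, ?_, hΨ, ?_, ?_⟩
  · refine Ψ.injective.comp (Perm.sumCongrHom_injective.comp ?_)
    exact tp_injective.prodMap Function.injective_id
  · intro x hx
    obtain ⟨x, rfl⟩ := Ψ.surjective x
    rw [← hΨ, ← map_mul, ← map_mul, Ψ.injective.eq_iff] at hx
    obtain ⟨⟨x1, x2⟩, rfl⟩ : x ∈ (Perm.sumCongrHom _ _).range := by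
      apply Perm.mem_sumCongrHom_range_of_perm_mapsTo_inl
      rintro _ ⟨a, rfl⟩
      rcases hxa : x (Sum.inl a) with b | b
      · exact ⟨b, rfl⟩
      · exfalso
        have := congrArg (fun y : Perm _ => y (Sum.inl a)) hx
        simp only [hΦ, Perm.mul_apply, Perm.sumCongr_apply, Sum.map_inl, hxa, Sum.map_inr,
          Perm.one_apply] at this
        rw [← hxa, x.injective.eq_iff] at this
        exact tp_z_ne a (Sum.inl_injective this)
    obtain ⟨w, rfl⟩ := exists_tp (x := x1) (by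
      refine Equiv.ext fun a => ?_
      have := congrArg (fun y : Perm _ => y (Sum.inl a)) hx
      simpa [hΦ] using this)
    exact ⟨(w, x2), rfl⟩
  · intro w f
    change Perm.sign (k * e.permCongr (Φ (w, f)) * k⁻¹) = _
    rw [map_mul, map_mul, map_inv, mul_inv_cancel_comm, Perm.sign_permCongr, hΦ,
      Perm.sign_sumCongr]

theorem cube_eq_one {r : ℕ} (hr : r = 2 ∨ r = 3) (f : Perm (Fin r)) (hf : Perm.sign f = 1) :
    f ^ 3 = 1 := by
  rcases hr with rfl | rfl
  · revert f; decide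
  · revert f; decide

theorem exists_setup (n r : ℕ) (hn : 1 ≤ n) (hr : r = 2 ∨ r = 3)
    (α : ↥(alternatingGroup (Fin (4 * n + r)))) (hα : orderOf α = 2)
    (hα4 : (α : Equiv.Perm (Fin (4 * n + r))).support.card = 4 * n)
    {G : Type*} [Group G] [Finite G] (t : G) (ht : orderOf t = 2)
    (hodd : Odd (centralizer ({t} : Set G)).index)
    (ψ : ↥(centralizer ({t} : Set G)) ≃*
      ↥(centralizer ({α} : Set ↥(alternatingGroup (Fin (4 * n + r)))))) :
    Nonempty (Setup G (Fin n)) := by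
  classical
  have : Nonempty (Fin n) := ⟨⟨0, hn⟩⟩
  have hα2 : (α : Perm (Fin (4 * n + r))) * α = 1 := by
    have := pow_orderOf_eq_one α
    rw [hα, pow_two] at this
    exact congrArg Subtype.val this
  obtain ⟨Θ, hΘ, hΘz, hΘc, hΘs⟩ := exists_theta n r α hα2 hα4
  obtain ⟨f0, hf0, hf0s⟩ : ∃ f0 : Perm (Fin r), f0 * f0 = 1 ∧ Perm.sign f0 = -1 := by
    refine ⟨swap ⟨0, by omega⟩ ⟨1, by omega⟩, swap_mul_self _ _, Perm.sign_swap (by simp)⟩
  set H := centralizer ({t} : Set G) with hH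
  have hm : ∀ {x}, x ∈ H ↔ x * t = t * x := mem_centralizer_singleton_iff
  have h1 : ∀ h : H, ∃ u, Θ u = ((ψ h).1 : Perm (Fin (4 * n + r))) := fun h =>
    hΘc _ (congrArg Subtype.val (mem_centralizer_singleton_iff.mp (ψ h).2))
  choose ρ0 hρ0 using h1
  let ρ : H →* W (Fin n × ZMod 2) × Perm (Fin r) := MonoidHom.mk' ρ0 fun a b => hΘ (by
    rw [map_mul, hρ0, hρ0, hρ0, map_mul]; rfl)
  have hρ : ∀ h, Θ (ρ h) = ((ψ h).1 : Perm (Fin (4 * n + r))) := hρ0
  have hρi : Function.Injective ρ := fun a b e =>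
    ψ.injective (Subtype.ext (Subtype.ext (by rw [← hρ, ← hρ, e])))
  have hρs : ∀ h, Perm.sign (tp (ρ h).1) * Perm.sign (ρ h).2 = 1 := fun h => by
    rw [← hΘs, Prod.mk.eta, hρ]
    exact Perm.mem_alternatingGroup.mp (ψ h).1.2
  let fs : ℤˣ →* Perm (Fin r) := MonoidHom.mk' (fun u => if u = 1 then 1 else f0) fun a b => by
    rcases Int.units_eq_one_or a with rfl | rfl <;> rcases Int.units_eq_one_or b with rfl | rfl <;>
      simp [hf0]
  have hfs : ∀ u, Perm.sign (fs u) = u := fun u => by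
    rcases Int.units_eq_one_or u with rfl | rfl
    · simp
    · change Perm.sign (if (-1 : ℤˣ) = 1 then 1 else f0) = -1
      rw [if_neg (by decide), hf0s]
  let θ : W (Fin n × ZMod 2) →* W (Fin n × ZMod 2) × Perm (Fin r) :=
    (MonoidHom.id _).prod (fs.comp (Perm.sign.comp tp))
  have hθ : ∀ w, θ w = (w, fs (Perm.sign (tp w))) := fun _ => rfl
  have h2 : ∀ w, ∃ h : H, ρ h = θ w := by
    intro w
    have a1 : Θ (θ w) ∈ alternatingGroup (Fin (4 * n + r)) := by
      rw [Perm.mem_alternatingGroup, hθ, hΘs, hfs, Int.units_mul_self]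
    have a2 : (⟨_, a1⟩ : alternatingGroup (Fin (4 * n + r))) ∈ centralizer {α} := by
      rw [mem_centralizer_singleton_iff]
      apply Subtype.ext
      change Θ (θ w) * α = α * Θ (θ w)
      rw [← hΘz, ← map_mul, ← map_mul, hθ, Prod.mk_mul_mk, Prod.mk_mul_mk, z_comm, mul_one,
        one_mul]
    refine ⟨ψ.symm ⟨_, a2⟩, hΘ ?_⟩
    rw [hρ, MulEquiv.apply_symm_apply]
  choose σ0 hσ0 using h2
  let σH : W (Fin n × ZMod 2) →* H := MonoidHom.mk' σ0 fun a b => hρi (by
    rw [map_mul, hσ0, hσ0, hσ0, map_mul])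
  have hσ : ∀ w, ρ (σH w) = θ w := hσ0
  let πH : H →* W (Fin n × ZMod 2) := (MonoidHom.fst _ _).comp ρ
  have hπσ : ∀ w, πH (σH w) = w := fun w => by
    change (ρ (σH w)).1 = w
    rw [hσ, hθ]
  have hker : ∀ h : H, πH h = 1 → h ^ 3 = 1 := by
    intro h hh
    have a1 : (ρ h).1 = 1 := hh
    have a2 := hρs h
    rw [a1, map_one, map_one, one_mul] at a2
    apply hρi
    rw [map_pow, map_one]
    exact Prod.ext (by simp [a1]) (by simpa using cube_eq_one hr _ a2)
  have htH : t ∈ H := hm.mpr rfl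
  have ht2 : (⟨t, htH⟩ : H) ^ 2 = 1 := Subtype.ext (by
    have := pow_orderOf_eq_one t
    rwa [ht] at this)
  have h23 : ∀ h : H, h ^ 2 = 1 → h ^ 3 = 1 → h = 1 := fun h a b => by
    rw [pow_succ, a, one_mul] at b; exact b
  have hπt : πH ⟨t, htH⟩ = z := by
    apply eq_z_of_central
    · intro a
      rw [← hπσ a, ← map_mul, ← map_mul]
      congr 1
      exact Subtype.ext (hm.mp (σH a).2)
    · intro e
      have := congrArg Subtype.val (h23 _ ht2 (hker _ e))
      rw [show t = 1 from this, orderOf_one] at ht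
      omega
  have hzz : (z : W (Fin n × ZMod 2)) * z = 1 := by ext c <;> simp [z, zm_add_self]
  have hσz : σH z = ⟨t, htH⟩ := by
    rw [← mul_inv_eq_one]
    apply h23
    · have hc : Commute (σH z) (⟨t, htH⟩ : H)⁻¹ :=
        Commute.inv_right (Subtype.ext (hm.mp (σH z).2))
      rw [hc.mul_pow, inv_pow, ht2, ← map_pow, pow_two, hzz, map_one]; simp
    · apply hker
      rw [map_mul, map_inv, hπσ, hπt, mul_inv_cancel]
  refine ⟨⟨t, H.subtype.comp σH, fun x => if h : x ∈ H then πH ⟨x, h⟩ else 1, ?_, ?_, ?_, ?_⟩⟩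
  · intro x y hx hy
    rw [dif_pos (hm.mpr hx), dif_pos (hm.mpr hy), dif_pos (mul_mem (hm.mpr hx) (hm.mpr hy)),
      ← map_mul]
    rfl
  · intro w
    change (if h : (σH w : G) ∈ H then πH ⟨σH w, h⟩ else 1) = w
    rw [dif_pos (σH w).2]
    exact hπσ w
  · change (σH z : G) = t
    rw [hσz]
  · rw [MonoidHom.range_comp, index_map_subtype]
    refine Odd.mul ?_ hodd
    have : Fact (Nat.Prime 3) := ⟨Nat.prime_three⟩
    have a1 : IsPGroup 3 πH.ker := fun h => ⟨1, Subtype.ext (by simpa using hker h.1 h.2)⟩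
    obtain ⟨k, hk⟩ := IsPGroup.iff_card.mp a1
    have a2 := πH.ker.card_mul_index
    have a3 := σH.range.card_mul_index
    have a4 : πH.range = ⊤ := MonoidHom.range_eq_top.mpr fun w => ⟨_, hπσ w⟩
    have a5 : Function.Injective σH := fun a b e => by rw [← hπσ a, e, hπσ]
    rw [index_ker, a4, card_top] at a2
    rw [← Nat.card_congr (MonoidHom.ofInjective a5).toEquiv, ← a2, mul_comm] at a3
    rw [Nat.eq_of_mul_eq_mul_right Nat.card_pos a3, hk]
    exact Odd.pow (by decide)

end Cfsg.Agent.KO
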