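import Cfsg.Agent.KO.Setup

/-!
# The fusion of involutions
-/

set_option autoImplicit false
set_option linter.unusedSectionVars false

namespace Cfsg.Agent.KO

open Subgroup Equiv Cfsg.Agent.H8 W

variable {G : Type*} [Group G] [Finite G] {B : Type*} [Fintype B] [DecidableEq B]

namespace Setup

variable {S : Setup G B}

theorem transfer (hG : ∀ K : Subgroup G, K.index ≠ 2) (χ : W (B × ZMod 2) →* ℤˣ) {I : Finset B}
    {s : W (B × ZMod 2)} (hs : s ∈ W.A I) (hχ : χ s = -1) :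
    ∃ τ ∈ XX (S.A I), ∃ a ∈ W.A I, (τ ⟨S.σ s, S.σ_mem_A.mpr hs⟩ : G) = S.σ a ∧ χ a = 1 := by
  set H : Subgroup G := centralizer {S.t} with hH
  have hm : ∀ {x}, x ∈ H ↔ x * S.t = S.t * x := mem_centralizer_singleton_iff
  have hle : S.σ.range ≤ H := by rintro _ ⟨w, rfl⟩; exact hm.mpr (S.σ_comm w)
  let f : H →* ℤˣ := MonoidHom.mk' (fun h => χ (S.π h)) fun a b => by
    rw [← map_mul, ← S.π_mul _ _ (hm.mp a.2) (hm.mp b.2)]; rfl
  have hf : f.range = ⊤ := by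
    rw [eq_top_iff]
    intro u _
    rcases Int.units_eq_one_or u with rfl | rfl
    · exact one_mem _
    · exact ⟨⟨S.σ s, hle ⟨s, rfl⟩⟩, by change χ (S.π (S.σ s)) = -1; rw [S.πσ, hχ]⟩
  have hM : (f.ker.map H.subtype).relIndex H = 2 := by
    rw [relIndex, subgroupOf, comap_map_eq_self_of_injective H.subtype_injective, index_ker, hf,
      card_top, Nat.card_eq_fintype_card, Fintype.card_units_int]
  have hsq : ∀ a ∈ S.A I, a * a = 1 := fun a ha => S.A_sq ha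
  obtain ⟨g, hg1, hg2⟩ := H7.thompson_extremal hG (H := H)
    (Odd.of_dvd_nat S.odd (index_dvd_of_le hle)) (map_subtype_le _) hM (t := S.σ s)
    (hsq _ (S.σ_mem_A.mpr hs)) (pgroup_of_sq hsq)
    (fun x hx => comm_of_sq' hsq x hx _ (S.σ_mem_A.mpr hs))
  obtain ⟨x, hx, h, hh, rfl⟩ := factor hg2
  obtain ⟨τ, hτ, hi⟩ := exists_ind (inv_mem hx)
  obtain ⟨a, ha, e⟩ := (τ ⟨S.σ s, S.σ_mem_A.mpr hs⟩).2
  refine ⟨τ, hτ, a, ha, e.symm, ?_⟩
  obtain ⟨k, hk, ek⟩ := hg1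
  have h1 : χ (S.π k) = 1 := hk
  have h2 : (k : G) = h⁻¹ * S.σ a * h⁻¹⁻¹ := by
    rw [e, hi]
    refine ek.trans ?_
    group
  rw [h2, S.π_conj (Commute.inv_left (a := h) hh).eq, map_mul, map_mul, map_inv,
    mul_inv_cancel_comm] at h1
  exact h1

theorem sqA (I : Finset B) (a : S.A I) : a * a = 1 := Subtype.ext (S.A_sq a.2)

theorem goodA (I : Finset B) : Good (XX (S.A I)) (Fintype.card B) :=
  S.good (fun _ ha => S.A_sq ha) (S.card_A I)

theorem fix_y {I : Finset B} {τ : MulAut (S.A I)}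
    (h : ∀ b, ∀ x : S.A I, (x : G) = S.σ (y {b}) → τ x = x) (J : Finset B) :
    ∀ x : S.A I, (x : G) = S.σ (y J) → τ x = x := by
  induction J using Finset.induction_on with
  | empty =>
    intro x hx
    rw [y_empty, map_one] at hx
    rw [show x = 1 from Subtype.ext hx, map_one]
  | insert b K hb ih =>
    intro x hx
    rw [y_insert hb, map_mul] at hx
    have : x = ⟨_, S.σ_mem_A.mpr (y_mem I {b})⟩ * ⟨_, S.σ_mem_A.mpr (y_mem I K)⟩ :=
      Subtype.ext hx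
    rw [this, map_mul, h b _ rfl, ih _ rfl]

/-- Isolated transvections. -/
def Iso {A : Subgroup G} (τ : MulAut A) : Prop :=
  τ ∈ XX A ∧ (∃ c, Tv τ c) ∧ ∀ τ' ∈ XX A, ∀ c', Tv τ' c' → τ c' = c'

theorem Iso.conj {A : Subgroup G} {τ x : MulAut A} (h : Iso τ) (hx : x ∈ XX A) :
    Iso (x * τ * x⁻¹) := by
  obtain ⟨h1, ⟨c, h2⟩, h3⟩ := h
  refine ⟨mul_mem (mul_mem hx h1) (inv_mem hx), ⟨_, h2.conj x⟩, fun τ' hτ' c' h' => ?_⟩
  have := h3 _ (mul_mem (mul_mem (inv_mem hx) hτ') (inv_mem (inv_mem hx))) _ (h'.conj x⁻¹)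
  simp only [MulAut.mul_apply]
  rw [this]; simp

theorem one_conj {A : Subgroup G} {x : MulAut A} (hx : x ∈ XX A) {a : A}
    (h : ∃! τ, Iso τ ∧ τ a ≠ a) : ∃! τ, Iso τ ∧ τ (x a) ≠ x a := by
  obtain ⟨τ, ⟨h1, h2⟩, h3⟩ := h
  refine ⟨x * τ * x⁻¹, ⟨h1.conj hx, by simpa using h2⟩, fun τ' ⟨h4, h5⟩ => ?_⟩
  have := h3 (x⁻¹ * τ' * x⁻¹⁻¹) ⟨h4.conj (inv_mem hx), fun e => h5 (by
    simp only [inv_inv, MulAut.mul_apply] at e
    have e' := congrArg x e
    simpa using e')⟩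
  rw [← this]; group

theorem Iso.std {I : Finset B} {τ : MulAut (S.A I)} (h : Iso τ) :
    ∃ c p q, Tv τ c ∧ StdTv S I τ c p q := by
  obtain ⟨h1, ⟨c, h2⟩, h3⟩ := h
  obtain ⟨τ0, c0, hF, hc, -, -⟩ := exists_frame (S := S) (I := I) rfl
  obtain ⟨p, q, hs⟩ := exists_std rfl h1 h2 (x := ⟨S.t, t_mem⟩) rfl (fix_y (fun b x hx => by
    rw [show x = c0 b from Subtype.ext (hx.trans (hc b).symm)]
    exact h3 _ (hF.mem b) _ (hF.tv b)) Finset.univ _ (by rw [y_univ, S.σz]))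
  exact ⟨c, p, q, h2, hs⟩

theorem pair_cases {I : Finset B} {p q : B × ZMod 2} (hpq : p ≠ q) (h : mu I p = q) :
    p.1 ∈ I ∧ ((p = (p.1, 0) ∧ q = (p.1, 1)) ∨ (p = (p.1, 1) ∧ q = (p.1, 0))) := by
  have h1 : p.1 ∈ I := by
    by_contra hn
    exact hpq ((mu_eq_self.mpr hn).symm.trans h)
  refine ⟨h1, ?_⟩
  rw [mu_apply, if_pos h1] at h
  obtain ⟨b, x⟩ := p
  subst h
  rcases zm_cases x with rfl | rfl
  · left; simp
  · right; simp [zm_add_self]

theorem eq_swap {I : Finset B} {a : W (B × ZMod 2)} (ha : a ∈ W.A I) {b : B}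
    (h1 : a.s (b, 0) ≠ (b, 0)) (h2 : ∀ b' ∈ I, b' ≠ b → a.s (b', 0) = (b', 0)) :
    a.s = swap (b, 0) (b, 1) := by
  have hb : b ∈ I := by
    by_contra hn
    exact h1 ((ha _).1.elim id fun e => e.trans (mu_eq_self.mpr hn))
  have h3 : a.s (b, 0) = (b, 1) := ((ha _).1.resolve_left h1).trans (mu_zero hb)
  have h4 : ∀ b' x, b' ≠ b → a.s (b', x) = (b', x) := by
    intro b' x hne
    by_cases hb' : b' ∈ I
    · rcases zm_cases x with rfl | rfl
      · exact h2 b' hb' hne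
      · rw [← mu_zero hb', Am_fix_iff ha]; exact h2 b' hb' hne
    · exact (ha _).1.elim id fun e => e.trans (mu_eq_self.mpr hb')
  refine Equiv.ext ?_
  rintro ⟨b', x⟩
  by_cases hne : b' = b
  · subst hne
    rcases zm_cases x with rfl | rfl
    · rw [h3, swap_apply_left]
    · rw [swap_apply_right, ← h3, Am_ss ha]
  · rw [h4 b' x hne, swap_apply_of_ne_of_ne] <;> simp [hne]

theorem eq_one_of_fix {I : Finset B} {a : W (B × ZMod 2)} (ha : a ∈ W.A I)
    (h2 : ∀ b' ∈ I, a.s (b', 0) = (b', 0)) : a.s = 1 := by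
  refine Equiv.ext ?_
  rintro ⟨b', x⟩
  by_cases hb' : b' ∈ I
  · rcases zm_cases x with rfl | rfl
    · exact h2 b' hb'
    · rw [Perm.one_apply, ← mu_zero hb', Am_fix_iff ha]; exact h2 b' hb'
  · exact (ha _).1.elim id fun e => e.trans (mu_eq_self.mpr hb')

theorem wt_of_two_fixed {I : Finset B} {a : W (B × ZMod 2)} (ha : a ∈ W.A I)
    {p q : B × ZMod 2} (hpq : p ≠ q) (hp : mu I p = p) (hq : mu I q = q)
    (h : ∀ r, mu I r = r → r = p ∨ r = q) : wt a = a.e p + a.e q := by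
  have hp' := mu_eq_self.mp hp
  rw [wt_eq, Finset.sum_eq_single p.1]
  · have h0 := h (p.1, 0) (mu_eq_self.mpr hp')
    have h1 := h (p.1, 1) (mu_eq_self.mpr hp')
    rcases h0 with e | e <;> rcases h1 with e' | e'
    · exact absurd (e.trans e'.symm) (by simp)
    · rw [e, e']
    · rw [e, e', add_comm]
    · exact absurd (e.trans e'.symm) (by simp)
  · intro b _ hb
    by_cases hbI : b ∈ I
    · rw [← mu_zero hbI, (ha _).2, zm_add_self]
    · exfalso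
      have h0 := h (b, 0) (mu_eq_self.mpr hbI)
      have h1 := h (b, 1) (mu_eq_self.mpr hbI)
      rcases h0 with e | e <;> rcases h1 with e' | e'
      · exact hb (by rw [← e])
      · exact hb (by rw [← e])
      · exact hb (by rw [← e'])
      · exact absurd (e.trans e'.symm) (by simp)
  · simp

theorem exists_neighbour (hG : ∀ K : Subgroup G, K.index ≠ 2) {I : Finset B} (hI : I.Nonempty) :
    ∃ b ∈ I, ∃ τ' ∈ XX (S.A I), ∃ c', Tv τ' c' ∧
      τ' ⟨_, S.σ_mem_A.mpr (y_mem I {b})⟩ ≠ ⟨_, S.σ_mem_A.mpr (y_mem I {b})⟩ := by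
  classical
  by_contra hn
  push Not at hn
  obtain ⟨τ0, c0, hF, hc, hS, -⟩ := exists_frame (S := S) (I := I) rfl
  have hiso : ∀ b ∈ I, Iso (τ0 b) := by
    intro b hb
    refine ⟨hF.mem b, ⟨_, hF.tv b⟩, fun τ' hτ' c' h' => ?_⟩
    refine (goodA I).symm (sqA I) (hF.mem b) hτ' (hF.tv b) h' ?_
    rw [show c0 b = ⟨_, S.σ_mem_A.mpr (y_mem I {b})⟩ from Subtype.ext (hc b)]
    exact hn b hb τ' hτ' c' h'
  have hmv : ∀ b ∈ I, ∀ (x : S.A I), ∀ a ∈ W.A I, (x : G) = S.σ a →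
      (τ0 b x = x ↔ a.s (b, 0) = (b, 0)) := by
    intro b hb x a ha e
    rw [(hS b).fix x a ha e]
    exact ⟨fun h => h.elim (fun h => h.2) fun h => absurd hb (mu_eq_self.mp h.1),
      fun h => Or.inl ⟨mu_zero hb, h⟩⟩
  -- an isolated transvection of pair type is one of the frame
  have hpair : ∀ τ c p q, Tv τ c → StdTv S I τ c p q → mu I p = q → p.1 ∈ I ∧ τ = τ0 p.1 := by
    intro τ c p q hT hs e
    obtain ⟨h1, h2⟩ := pair_cases hs.ne e
    refine ⟨h1, ?_⟩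
    rcases h2 with ⟨e1, e2⟩ | ⟨e1, e2⟩
    · exact hs.eq rfl (by rw [e2]; nth_rewrite 3 [e1]; exact hS p.1) hT (hF.tv _)
    · exact hs.eq rfl (by rw [e2]; nth_rewrite 3 [e1]; exact (hS p.1).symm) hT (hF.tv _)
  obtain ⟨b0, hb0⟩ := hI
  set s : W (B × ZMod 2) := P (swap (b0, 0) (b0, 1)) with hs
  have hsA : s ∈ W.A I := by rw [hs, ← mu_zero hb0]; exact swap_mem _
  have hone : ∃! τ, Iso τ ∧ τ (⟨_, S.σ_mem_A.mpr hsA⟩ : S.A I) ≠ ⟨_, S.σ_mem_A.mpr hsA⟩ := by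
    refine ⟨τ0 b0, ⟨hiso b0 hb0, ?_⟩, fun τ ⟨h1, h2⟩ => ?_⟩
    · rw [Ne, hmv b0 hb0 _ s hsA rfl]; simp [hs]
    · obtain ⟨c, p, q, hT, hstd⟩ := h1.std
      rcases hstd.typ with e | ⟨e1, e2⟩
      · obtain ⟨h3, h4⟩ := hpair τ c p q hT hstd e
        rw [h4, Ne, hmv _ h3 _ s hsA rfl] at h2
        rw [h4]
        by_contra hne
        apply h2
        have : p.1 ≠ b0 := fun e => hne (by rw [e])
        rw [hs, P_s, swap_apply_of_ne_of_ne] <;> simp [this]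
      · exact absurd ((hstd.fix _ s hsA rfl).2 (Or.inr ⟨e1, e2, rfl⟩)) h2
  -- shape of the elements moved by a unique isolated transvection of pair type
  have hshape : ∀ (x : S.A I), ∀ a ∈ W.A I, (x : G) = S.σ a → (∃! τ, Iso τ ∧ τ x ≠ x) →
      ∀ b ∈ I, τ0 b x ≠ x → χ₁ a = -1 := by
    intro x a ha e hu b hb hx
    rw [χ₁_apply, eq_swap ha (b := b) (fun h => hx ((hmv b hb x a ha e).2 h)), Perm.sign_swap]
    · simp
    · intro b' hb' hne
      by_contra h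
      exact hne (hF.inj' (hu.unique ⟨hiso b' hb', fun h' => h ((hmv b' hb' x a ha e).1 h')⟩
        ⟨hiso b hb, hx⟩))
  have hχs : χ₁ s = -1 := by rw [χ₁_apply, hs, P_s, Perm.sign_swap]; simp
  by_cases hB : ∃ (τ : MulAut (S.A I)) (c : S.A I) (p q : B × ZMod 2), Iso τ ∧ Tv τ c ∧ StdTv S I τ c p q ∧ mu I p = p ∧ mu I q = q
  · obtain ⟨τ1, c1, p1, q1, hi1, hT1, hs1, e1, e2⟩ := hB
    have hfx : ∀ r, mu I r = r → r = p1 ∨ r = q1 := by
      intro r hr
      by_contra hne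
      push Not at hne
      obtain ⟨τ', hτ', c', hT', hs'⟩ := exists_tv' (S := S) (I := I) rfl (p := p1) (q := r)
        hne.1.symm (Or.inr ⟨e1, hr⟩)
      have h1 := (hs1.fix c' _ hs'.ee_mem hs'.cen).1 (hi1.2.2 τ' hτ' c' hT')
      rcases h1 with ⟨h1, -⟩ | ⟨-, -, h1⟩
      · exact hs1.ne (e1.symm.trans h1)
      · rw [ee_e_left hne.1.symm, ee_e_other hs1.ne.symm hne.2.symm] at h1
        exact absurd h1 (by decide)
    obtain ⟨x, hx, a, ha, e, hχ⟩ := transfer (S := S) hG (χ₁ * χ₂) hsA (by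
      rw [MonoidHom.mul_apply, hχs, χ₂_apply]; simp [hs, wt, u_zero])
    have hu := one_conj hx hone
    rw [MonoidHom.mul_apply, χ₂_apply, wt_of_two_fixed ha hs1.ne e1 e2 hfx] at hχ
    by_cases hae : a.e p1 = a.e q1
    · obtain ⟨τ, ⟨h1, h2⟩, -⟩ := id hu
      obtain ⟨c, p, q, hT, hstd⟩ := h1.std
      rcases hstd.typ with e' | ⟨e1', e2'⟩
      · obtain ⟨h3, h4⟩ := hpair τ c p q hT hstd e'
        rw [hshape _ a ha e hu _ h3 (h4 ▸ h2), hae, zm_add_self, u_zero] at hχ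
        exact absurd hχ (by decide)
      · refine h2 ((hstd.fix _ a ha e).2 (Or.inr ⟨e1', e2', ?_⟩))
        rcases hfx p e1' with rfl | rfl <;> rcases hfx q e2' with rfl | rfl
        · rfl
        · exact hae
        · exact hae.symm
        · rfl
    · have h1 : τ1 (x ⟨_, S.σ_mem_A.mpr hsA⟩) ≠ x ⟨_, S.σ_mem_A.mpr hsA⟩ := by
        rw [Ne, hs1.fix _ a ha e]
        rintro (⟨h, -⟩ | ⟨-, -, h⟩)
        · exact hs1.ne (e1.symm.trans h)
        · exact hae h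
      have h2 : a.s = 1 := by
        refine eq_one_of_fix ha fun b hb => ?_
        by_contra h
        have h3 := hu.unique ⟨hi1, h1⟩ ⟨hiso b hb, fun h' => h ((hmv b hb _ a ha e).1 h')⟩
        have h4 : c1 = c0 b := hT1.uniq (h3 ▸ hF.tv b)
        have h5 := S.σ_inj (hs1.cen.symm.trans (h4 ▸ hc b))
        have h6 := congrArg (fun w : W (B × ZMod 2) => w.e p1) h5
        simp only [ee_e_left hs1.ne, y, E_e, Finset.mem_singleton] at h6
        have h7 : p1.1 = b := by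
          by_contra h7
          rw [if_neg h7] at h6
          exact absurd h6 (by decide)
        exact mu_eq_self.mp e1 (h7 ▸ hb)
      have h3 : a.e p1 + a.e q1 = 1 :=
        (zm_cases _).resolve_left fun h => hae (zm_eq_of_add h)
      rw [χ₁_apply, h2, h3, u_one] at hχ
      simp at hχ
  · obtain ⟨x, hx, a, ha, e, hχ⟩ := transfer (S := S) hG χ₁ hsA hχs
    have hu := one_conj hx hone
    obtain ⟨τ, ⟨h1, h2⟩, -⟩ := id hu
    obtain ⟨c, p, q, hT, hstd⟩ := h1.std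
    rcases hstd.typ with e' | ⟨e1', e2'⟩
    · obtain ⟨h3, h4⟩ := hpair τ c p q hT hstd e'
      rw [hshape _ a ha e hu _ h3 (h4 ▸ h2)] at hχ
      exact absurd hχ (by decide)
    · exact hB ⟨τ, c, p, q, h1, hT, hstd, e1', e2'⟩

theorem isConj_of_mem {A : Subgroup G} {τ : MulAut A} (hτ : τ ∈ XX A) (x : A) :
    IsConj (x : G) (τ x) := by
  obtain ⟨g, -, hi⟩ := mem_XX.mp hτ
  exact isConj_iff.mpr ⟨g, (hi x).symm⟩

theorem reduce_std (hG : ∀ K : Subgroup G, K.index ≠ 2) {I : Finset B} (hI : I.Nonempty)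
    {a : W (B × ZMod 2)} (ha : a ∈ W.A I) (has : a.s = mu I) :
    ∃ a' : W (B × ZMod 2), a' * a' = 1 ∧ IsConj (S.σ a) (S.σ a') ∧
      a'.s.support.card < a.s.support.card := by
  obtain ⟨b, hb, τ', hτ', c', hT', hne⟩ := exists_neighbour (S := S) hG hI
  obtain ⟨τ, hτ, c, hT, hS⟩ := exists_tv' (S := S) (I := I) rfl (p := (b, 0)) (q := (b, 1))
    (by simp) (Or.inl (mu_zero hb))
  have hc : c = ⟨_, S.σ_mem_A.mpr (y_mem I {b})⟩ := Subtype.ext (hS.cen.trans (by rw [← y_single]))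
  rw [← hc] at hne
  have h1 : τ c' ≠ c' := fun e => hne ((goodA I).symm (sqA I) hτ' hτ hT' hT e)
  obtain ⟨a1, ha1, e1⟩ := c'.2
  have h2 : a1.s (b, 0) ≠ (b, 0) := fun e =>
    h1 ((hS.fix c' a1 ha1 e1.symm).2 (Or.inl ⟨mu_zero hb, e⟩))
  have hlt : (a.s * a1.s).support.card < a.s.support.card := by
    apply Finset.card_lt_card
    rw [has]
    refine ⟨fun x hx => ?_, fun h => ?_⟩
    · rw [Perm.mem_support] at hx ⊢
      intro e
      apply hx
      rw [Perm.mul_apply, (ha1 x).1.elim id fun e' => e'.trans e, e]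
    · have := h (Perm.mem_support.mpr (fun e => mu_eq_self.mp e hb : mu I (b, 0) ≠ (b, 0)))
      rw [Perm.mem_support, Perm.mul_apply, (ha1 _).1.resolve_left h2, mu_mu] at this
      exact this rfl
  set x : S.A I := ⟨S.σ a, S.σ_mem_A.mpr ha⟩ with hx
  by_cases h3 : τ' x = x
  · have h4 : τ x ≠ x := by
      rw [Ne, hS.fix x a ha rfl]
      rintro (⟨-, h⟩ | ⟨h, -⟩)
      · rw [has] at h; exact mu_eq_self.mp h hb
      · exact mu_eq_self.mp h hb
    have h5 : τ' (x * c) ≠ x * c := by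
      rw [Ne, hT'.mul_fix_iff (sqA I)]
      simp [h3, hne]
    refine ⟨a * y {b} * a1, Am_sq (mul_mem (mul_mem ha (y_mem I _)) ha1), ?_, by simpa [y]⟩
    have h6 := (isConj_of_mem hτ x).trans (isConj_of_mem hτ' (τ x))
    rw [hT.eq_of_ne h4, hT'.eq_of_ne h5, hc] at h6
    simpa [e1] using h6
  · refine ⟨a * a1, Am_sq (mul_mem ha ha1), ?_, hlt⟩
    have h6 := isConj_of_mem hτ' x
    rw [hT'.eq_of_ne h3] at h6
    simpa [e1] using h6

theorem isConj_σ (w a : W (B × ZMod 2)) : IsConj (S.σ a) (S.σ (w * a * w⁻¹)) :=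
  isConj_iff.mpr ⟨S.σ w, by simp⟩

theorem reduce (hG : ∀ K : Subgroup G, K.index ≠ 2) {a : W (B × ZMod 2)} (ha : a * a = 1) :
    ∃ η, IsConj (S.σ a) (S.σ (E η)) := by
  induction hk : a.s.support.card using Nat.strong_induction_on generalizing a with
  | _ k ih =>
    obtain ⟨hμ, ha1⟩ := mem_Am_self ha
    obtain ⟨I, s, hs⟩ := W.exists_std hμ
    by_cases hI : I.Nonempty
    · have h1 : (P s⁻¹ * a * (P s⁻¹)⁻¹).s = mu I := by
        refine Equiv.ext fun c => ?_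
        simp [hs]
      have h2 : P s⁻¹ * a * (P s⁻¹)⁻¹ ∈ W.A I := conj_mem_Am (P s⁻¹) (by
        intro c
        obtain ⟨c, rfl⟩ := s.surjective c
        simp [hs]) ha1
      obtain ⟨a', h3, h4, h5⟩ := reduce_std (S := S) hG hI h2 h1
      rw [conj_s, Perm.card_support_conj, hk] at h5
      obtain ⟨η, h6⟩ := ih _ h5 h3 rfl
      exact ⟨η, (isConj_σ _ a).trans (h4.trans h6)⟩
    · rw [Finset.not_nonempty_iff_eq_empty] at hI
      subst hI
      have : a.s = 1 := by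
        refine Equiv.ext fun c => ?_
        obtain ⟨c, rfl⟩ := s.surjective c
        rw [hs, mu_empty]; rfl
      exact ⟨a.e, by rw [← eq_E this]⟩

theorem E_mem (η : B × ZMod 2 → ZMod 2) : E η ∈ W.A ∅ := mem_A_empty.mpr rfl

theorem exists_tv_empty {p q : B × ZMod 2} (hpq : p ≠ q) :
    ∃ τ ∈ XX (S.A ∅), ∃ c : S.A ∅, Tv τ c ∧ (c : G) = S.σ (ee p q) ∧
      ∀ x : S.A ∅, ∀ a ∈ W.A ∅, (x : G) = S.σ a → (τ x = x ↔ a.e p = a.e q) := by
  obtain ⟨τ, hτ, c, hT, hS⟩ := exists_tv' (S := S) (I := ∅) rfl hpq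
    (Or.inr ⟨by simp [mu_empty], by simp [mu_empty]⟩)
  refine ⟨τ, hτ, c, hT, hS.cen, fun x a ha e => ?_⟩
  rw [hS.fix x a ha e, Kind, mu_empty]
  simp [hpq]

theorem exists_moving [Nonempty B] (hG : ∀ K : Subgroup G, K.index ≠ 2) :
    ∃ τ' ∈ XX (S.A ∅), ∃ c', Tv τ' c' ∧ τ' ⟨S.t, t_mem⟩ ≠ ⟨S.t, t_mem⟩ := by
  by_contra hn
  push Not at hn
  obtain ⟨b⟩ := ‹Nonempty B›
  obtain ⟨x, hx, a, ha, e, hχ⟩ := transfer (S := S) hG χ₂ (E_mem (Pi.single (b, 0) 1))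
    (by rw [χ₂_apply, wt_single, u_one])
  have hxt : x ⟨S.t, t_mem⟩ = ⟨S.t, t_mem⟩ := by
    obtain ⟨a1, ha1, e1⟩ := (x ⟨S.t, t_mem⟩).2
    have h1 : ∀ p q, a1.e p = a1.e q := by
      intro p q
      by_cases hpq : p = q
      · rw [hpq]
      obtain ⟨τ, hτ, c, hT, -, hf⟩ := exists_tv_empty (S := S) hpq
      rw [← hf _ a1 ha1 e1.symm]
      have := hn _ (mul_mem (mul_mem (inv_mem hx) hτ) (inv_mem (inv_mem hx))) _ (hT.conj x⁻¹)
      simp only [inv_inv, MulAut.mul_apply] at this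
      conv_rhs => rw [← this]
      simp
    have h2 : a1 ≠ 1 := by
      rintro rfl
      rw [map_one] at e1
      have h3 : x ⟨S.t, t_mem⟩ = 1 := Subtype.ext e1.symm
      rw [map_eq_one_iff _ x.injective] at h3
      have h4 : S.σ z = S.σ 1 := by rw [S.σz, map_one]; exact congrArg Subtype.val h3
      have h5 := congrArg (fun w : W (B × ZMod 2) => w.e (b, 0)) (S.σ_inj h4)
      simp [z] at h5
    have h3 : a1 = z := by
      refine W.ext (funext fun c => ?_) (mem_A_empty.mp ha1)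
      rcases zm_cases (a1.e c) with h | h
      · exact absurd (W.ext (funext fun d => by rw [h1 d c, h]; rfl) (mem_A_empty.mp ha1)) h2
      · exact h
    exact Subtype.ext (by rw [← e1, h3, S.σz])
  obtain ⟨g, -, hg⟩ := mem_XX.mp hx
  have h1 := exists_ind_σ rfl hg (comm_of_fix hg hxt)
  rw [h1, ← map_inv, ← map_mul, ← map_mul] at e
  rw [← S.σ_inj e, map_mul, map_mul, map_inv, mul_inv_cancel_comm, χ₂_apply, wt_single,
    u_one] at hχ
  exact absurd hχ (by decide)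

theorem nonconst {η : B × ZMod 2 → ZMod 2} (h : wt (E η) = 1) : ∃ p q, η p ≠ η q := by
  by_contra hn
  push Not at hn
  rw [wt_eq, Finset.sum_eq_zero] at h
  · exact absurd h (by decide)
  · intro b _
    rw [E_e, hn (b, 0) (b, 1), zm_add_self]

theorem odd_to_even [Nonempty B] (hG : ∀ K : Subgroup G, K.index ≠ 2)
    {η : B × ZMod 2 → ZMod 2} (h : wt (E η) = 1) :
    ∃ η', wt (E η') = 0 ∧ IsConj (S.σ (E η)) (S.σ (E η')) := by
  obtain ⟨τ', hτ', c', hT', hne⟩ := exists_moving (S := S) hG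
  obtain ⟨a1, ha1, e1⟩ := c'.2
  have hsym : ∀ p q, p ≠ q → ∀ x : S.A ∅, (x : G) = S.σ (ee p q) →
      (τ' x = x ↔ a1.e p = a1.e q) := by
    intro p q hpq x hx
    obtain ⟨τ, hτ, c, hT, hc, hf⟩ := exists_tv_empty (S := S) hpq
    rw [show x = c from Subtype.ext (hx.trans hc.symm), ← hf c' a1 ha1 e1.symm]
    exact ⟨(goodA ∅).symm (sqA ∅) hτ hτ' hT hT', (goodA ∅).symm (sqA ∅) hτ' hτ hT' hT⟩
  have hK : ∀ K : Finset B, ∀ x : S.A ∅, (x : G) = S.σ (y K) →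
      (τ' x = x ↔ ∑ b ∈ K, (a1.e (b, 0) + a1.e (b, 1)) = 0) := by
    intro K
    induction K using Finset.induction_on with
    | empty =>
      intro x hx
      rw [y_empty, map_one] at hx
      rw [show x = 1 from Subtype.ext hx]
      simp
    | insert b K hb ih =>
      intro x hx
      rw [y_insert hb, map_mul] at hx
      have : x = ⟨_, S.σ_mem_A.mpr (y_mem ∅ {b})⟩ * ⟨_, S.σ_mem_A.mpr (y_mem ∅ K)⟩ :=
        Subtype.ext hx
      rw [this, hT'.mul_fix_iff (sqA ∅), ih ⟨_, S.σ_mem_A.mpr (y_mem ∅ K)⟩ rfl,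
        hsym (b, 0) (b, 1) (by simp) ⟨_, S.σ_mem_A.mpr (y_mem ∅ {b})⟩
        (by rw [← y_single]), Finset.sum_insert hb]
      generalize a1.e (b, 0) = u
      generalize a1.e (b, 1) = v
      generalize ∑ b ∈ K, (a1.e (b, 0) + a1.e (b, 1)) = w
      revert u v w
      decide
  have hw1 : wt a1 = 1 := by
    refine (zm_cases _).resolve_left fun h0 => hne ?_
    rw [hK Finset.univ _ (by rw [y_univ, S.σz]), ← wt_eq, h0]
  have key : ∀ η, wt (E η) = 1 → τ' ⟨_, S.σ_mem_A.mpr (E_mem η)⟩ ≠ ⟨_, S.σ_mem_A.mpr (E_mem η)⟩ →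
      ∃ η', wt (E η') = 0 ∧ IsConj (S.σ (E η)) (S.σ (E η')) := by
    intro η h hx
    have h1 := isConj_of_mem hτ' ⟨_, S.σ_mem_A.mpr (E_mem η)⟩
    rw [hT'.eq_of_ne hx] at h1
    have h2 : E η * a1 = E (η + a1.e) := by rw [← E_mul, ← eq_E (mem_A_empty.mp ha1)]
    refine ⟨η + a1.e, by rw [← h2, wt_mul, h, hw1]; rfl, ?_⟩
    rw [← h2]
    simpa [e1] using h1
  by_cases hx : τ' ⟨_, S.σ_mem_A.mpr (E_mem η)⟩ = ⟨_, S.σ_mem_A.mpr (E_mem η)⟩
  swap
  · exact key η h hx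
  obtain ⟨p, q, h1, h2⟩ : ∃ p q, η p ≠ η q ∧ a1.e p ≠ a1.e q := by
    by_contra hn
    push Not at hn
    obtain ⟨p, q, hpq⟩ := nonconst h
    obtain ⟨p', q', hpq'⟩ := nonconst (η := a1.e) (by rw [← eq_E (mem_A_empty.mp ha1), hw1])
    have h3 : ∀ r, a1.e r = a1.e p := by
      intro r
      by_cases h4 : η r = η p
      · rw [hn r q (h4 ▸ hpq), hn p q hpq]
      · exact hn r p h4
    exact hpq' ((h3 p').trans (h3 q').symm)
  have hpq : p ≠ q := fun e => h1 (by rw [e])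
  have h3 := conj_swap (μ := mu ∅) (hμ := mu_mu ∅) (c := p) (d := q) (by simp [mu_empty])
    (by simp [mu_empty]) (E_mem η)
  rw [E_e, if_neg h1] at h3
  have h4 : E η * ee p q = E (η + (ee p q).e) := by rw [← E_mul]; rfl
  obtain ⟨η', h5, h6⟩ := key (η + (ee p q).e) (by rw [← h4, wt_mul, h, wt_ee, add_zero]) (by
    have : (⟨_, S.σ_mem_A.mpr (E_mem (η + (ee p q).e))⟩ : S.A ∅) =
        ⟨_, S.σ_mem_A.mpr (E_mem η)⟩ * ⟨_, S.σ_mem_A.mpr (E_mem (ee p q).e)⟩ :=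
      Subtype.ext ((congrArg S.σ h4.symm).trans (map_mul _ _ _))
    rw [this, Ne, hT'.mul_fix_iff (sqA ∅), hsym p q hpq ⟨_, S.σ_mem_A.mpr (E_mem (ee p q).e)⟩ rfl]
    simp [hx, h2])
  refine ⟨η', h5, IsConj.trans ?_ h6⟩
  rw [← h4, ← h3]
  exact isConj_σ _ _

theorem exists_conj_y' [Nonempty B] (hG : ∀ K : Subgroup G, K.index ≠ 2) {x : G}
    (hx : x * x = 1) : ∃ J : Finset B, IsConj x (S.σ (y J)) := by
  have hz : ∀ a ∈ zpowers x, a * a = 1 := by
    rintro _ ⟨k, rfl⟩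
    change x ^ k * x ^ k = 1
    rw [← (Commute.refl x).mul_zpow, hx, one_zpow]
  obtain ⟨k, -, hk⟩ := S.exists_conj_le (pgroup_of_sq hz) le_top le_top
  obtain ⟨w, hw⟩ := mem_cj.mp (hk (mem_zpowers x))
  have h1 : IsConj x (S.σ w) := isConj_iff.mpr ⟨k⁻¹, by rw [hw, inv_inv]⟩
  have h2 : w * w = 1 := by
    apply S.σ_inj
    rw [map_mul, map_one, hw]
    calc k⁻¹ * x * k * (k⁻¹ * x * k) = k⁻¹ * (x * x) * k := by group
      _ = 1 := by rw [hx]; group
  obtain ⟨η, h3⟩ := reduce (S := S) hG h2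
  obtain ⟨η', h4, h5⟩ : ∃ η', wt (E η') = 0 ∧ IsConj (S.σ (E η)) (S.σ (E η')) := by
    rcases zm_cases (wt (E η)) with h | h
    · exact ⟨η, h, IsConj.refl _⟩
    · exact odd_to_even hG h
  obtain ⟨J, w', h6⟩ := exists_conj_y h4
  exact ⟨J, h1.trans (h3.trans (h5.trans (h6 ▸ isConj_σ w' _)))⟩

theorem weakly_closed {u : G} (hu : cj u (S.A ∅) ≤ S.σ.range) : cj u (S.A ∅) = S.A ∅ := by
  obtain ⟨x, hx, h, hh, e⟩ := factor (S := S) (I := ∅) (g := u⁻¹) (by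
    intro a ha
    obtain ⟨w, hw⟩ := hu (conj_mem_cj u ha)
    rw [inv_inv, ← hw]
    exact mem_centralizer_singleton_iff.mpr (S.σ_comm w))
  have hu' : u = h⁻¹ * x⁻¹ := by rw [← mul_inv_rev, ← e, inv_inv]
  rw [hu', cj_mul, cj_eq_self (inv_mem hx)] at hu ⊢
  apply cj_eq_self
  apply mem_normalizer_of_cj_le
  rintro _ ⟨_, ⟨a, ha, rfl⟩, rfl⟩
  obtain ⟨w, hw⟩ := hu (conj_mem_cj h⁻¹ (S.σ_mem_A.mpr ha))
  have h1 := congrArg S.π hw
  rw [S.πσ, S.π_conj (Commute.inv_left (a := h) hh).eq] at h1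
  refine ⟨w, mem_A_empty.mpr ?_, hw⟩
  rw [h1, conj_s, mem_A_empty.mp ha, mul_one, mul_inv_cancel]

theorem card_eq_of_isConj {J J' : Finset B} (h : IsConj (S.σ (y J)) (S.σ (y J'))) :
    J.card = J'.card := by
  have : Fact (Nat.Prime 2) := ⟨Nat.prime_two⟩
  obtain ⟨g, hg⟩ := isConj_iff.mp h
  have hsq : ∀ a ∈ S.A ∅, a * a = 1 := fun a ha => S.A_sq ha
  have hc : ∀ J : Finset B, S.A ∅ ≤ centralizer {S.σ (y J)} := fun J a ha =>
    mem_centralizer_singleton_iff.mpr (comm_of_sq' hsq a ha _ (S.σ_mem_A.mpr (y_mem ∅ J)))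
  obtain ⟨Q, hQ, hQ1⟩ := exists_isSylowIn_ge (pgroup_of_sq hsq) (hc J')
  obtain ⟨Q', hQ', hQ1'⟩ := exists_isSylowIn_ge (pgroup_cj (pgroup_of_sq hsq) g)
    (K := centralizer {S.σ (y J')}) (by rw [← hg, ← cj_centralizer_singleton]; exact cj_mono g (hc J))
  obtain ⟨k, hk, e⟩ := hQ'.exists_cj_eq hQ
  obtain ⟨v, -, hv⟩ := S.exists_conj_le hQ.pgroup le_top le_top
  rw [← cj_inv_cj v⁻¹ Q, inv_inv, cj_le_cj_iff] at hv
  have h1 := weakly_closed (S := S) (u := v⁻¹) ((cj_mono _ hQ1).trans hv)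
  have h2 := weakly_closed (S := S) (u := v⁻¹ * (k * g)) (by
    rw [cj_mul, cj_mul]
    exact (cj_mono _ (e ▸ cj_mono k hQ1')).trans hv)
  rw [cj_mul] at h2
  have h3 := cj_injective _ (h2.trans h1.symm)
  rw [← conj_A] at h3
  obtain ⟨x, -, hx, φ, hφ⟩ := frame_conj (S := S) rfl h3 (J := J) (J' := J') (by
    rw [conj_σ]
    calc k * g * S.σ (y J) * (k * g)⁻¹ = k * (g * S.σ (y J) * g⁻¹) * k⁻¹ := by group
      _ = _ := by rw [hg, mem_centralizer_singleton_iff.mp hk, mul_inv_cancel_right])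
  have h4 := hφ J
  rw [show (S.conj (k * g)).σ (y J) = S.σ (y J') by
    rw [conj_σ]
    calc k * g * S.σ (y J) * (k * g)⁻¹ = k * (g * S.σ (y J) * g⁻¹) * k⁻¹ := by group
      _ = _ := by rw [hg, mem_centralizer_singleton_iff.mp hk, mul_inv_cancel_right], hx] at h4
  rw [y_injective (S.σ_inj h4), Finset.card_map]

end Setup

theorem card_classes {n : ℕ} (hn : 1 ≤ n) (S : Setup G (Fin n))
    (hG : ∀ K : Subgroup G, K.index ≠ 2) :
    Nat.card {c : ConjClasses G // ∃ x ∈ c.carrier, orderOf x = 2} = n := by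
  have : Nonempty (Fin n) := ⟨⟨0, hn⟩⟩
  have : Fact (Nat.Prime 2) := ⟨Nat.prime_two⟩
  have hord : ∀ J : Finset (Fin n), J.Nonempty → orderOf (S.σ (y J)) = 2 := by
    intro J hJ
    apply orderOf_eq_prime
    · rw [pow_two]; exact S.A_sq (S.σ_mem_A.mpr (y_mem ∅ J))
    · intro e
      rw [← map_one S.σ, ← y_empty] at e
      exact hJ.ne_empty (y_injective (S.σ_inj e))
  let f : Fin n → {c : ConjClasses G // ∃ x ∈ c.carrier, orderOf x = 2} := fun j =>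
    ⟨ConjClasses.mk (S.σ (y (Finset.Iic j))), _, ConjClasses.mem_carrier_mk,
      hord _ ⟨j, Finset.mem_Iic.mpr le_rfl⟩⟩
  have hf : Function.Bijective f := by
    constructor
    · intro j j' e
      have h1 := Setup.card_eq_of_isConj
        (ConjClasses.mk_eq_mk_iff_isConj.mp (congrArg Subtype.val e))
      rw [Fin.card_Iic, Fin.card_Iic] at h1
      exact Fin.ext (by omega)
    · rintro ⟨c, x, hx, hx2⟩
      obtain ⟨J, hJ⟩ := Setup.exists_conj_y' (S := S) hG (x := x)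
        (by rw [← pow_two, ← hx2, pow_orderOf_eq_one])
      have hJ0 : 0 < J.card := by
        rw [Finset.card_pos, Finset.nonempty_iff_ne_empty]
        rintro rfl
        rw [y_empty, map_one, isConj_one_left] at hJ
        rw [hJ, orderOf_one] at hx2
        omega
      have hJn : J.card ≤ n := by simpa using Finset.card_le_univ J
      refine ⟨⟨J.card - 1, by omega⟩, Subtype.ext ?_⟩
      obtain ⟨w, hw⟩ := exists_conj_y_of_card (J := J)
        (J' := Finset.Iic (⟨J.card - 1, by omega⟩ : Fin n)) (by rw [Fin.card_Iic]; simp; omega)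
      change ConjClasses.mk _ = c
      rw [← ConjClasses.mem_carrier_iff_mk_eq.mp hx, ConjClasses.mk_eq_mk_iff_isConj, ← hw]
      exact (hJ.trans (Setup.isConj_σ w _)).symm
  rw [← Nat.card_eq_of_bijective f hf, Nat.card_eq_fintype_card, Fintype.card_fin]

end Cfsg.Agent.KO
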