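import Cfsg.Agent.KO.W2
import Cfsg.Agent.KO.Tv
import Cfsg.Agent.H7.TwoTools

/-!
# Groups with an involution centralizer of type `W(B_{2n})`: models and frames
-/

set_option autoImplicit false
set_option linter.unusedSectionVars false

namespace Cfsg.Agent.KO

open Subgroup Equiv Cfsg.Agent.H8 W

/-- `t` is a `2`-central involution whose centralizer retracts onto `W`. -/
structure Setup (G : Type*) [Group G] (B : Type*) where
  t : G
  σ : W (B × ZMod 2) →* G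
  π : G → W (B × ZMod 2)
  π_mul : ∀ x y, x * t = t * x → y * t = t * y → π (x * y) = π x * π y
  πσ : ∀ w, π (σ w) = w
  σz : σ W.z = t
  odd : Odd σ.range.index

variable {G : Type*} [Group G] [Finite G] {B : Type*} [Fintype B] [DecidableEq B]

/-- `τ` is induced by `g`. -/
def Ind {A : Subgroup G} (τ : MulAut A) (g : G) : Prop := ∀ a : A, (τ a : G) = g * a * g⁻¹

/-- The automorphisms induced by the normalizer. -/
def XX (A : Subgroup G) : Subgroup (MulAut A) := A.normalizerMonoidHom.range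

theorem mem_XX {A : Subgroup G} {τ : MulAut A} :
    τ ∈ XX A ↔ ∃ g ∈ normalizer (A : Set G), Ind τ g := by
  constructor
  · rintro ⟨g, rfl⟩
    exact ⟨g, g.2, fun a => rfl⟩
  · rintro ⟨g, hg, h⟩
    exact ⟨⟨g, hg⟩, MulEquiv.ext fun a => Subtype.ext (h a).symm⟩

theorem exists_ind {A : Subgroup G} {g : G} (hg : g ∈ normalizer (A : Set G)) :
    ∃ τ ∈ XX A, Ind τ g :=
  ⟨A.normalizerMonoidHom ⟨g, hg⟩, ⟨_, rfl⟩, fun _ => rfl⟩

theorem kind_symm {C : Type*} [DecidableEq C] {μ : Perm C} {hμ : ∀ c, μ (μ c) = c} {p q : C}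
    {a : W C} (ha : a ∈ Am μ hμ) (h : Kind μ p q a) : Kind μ q p a := by
  rcases h with ⟨h1, h2⟩ | ⟨h1, h2, h3⟩
  · left
    refine ⟨by rw [← h1, hμ], ?_⟩
    rw [← h1, Am_fix_iff ha, h2]
  · exact Or.inr ⟨h2, h1, h3.symm⟩

theorem kind_ee_symm {C : Type*} [DecidableEq C] {μ : Perm C} (hμ : ∀ c, μ (μ c) = c)
    {p q p' q' : C} (hpq : p ≠ q) (hpq' : p' ≠ q') (h : μ p = q ∨ (μ p = p ∧ μ q = q))
    (h' : μ p' = q' ∨ (μ p' = p' ∧ μ q' = q')) (hk : Kind μ p' q' (ee p q)) :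
    Kind μ p q (ee p' q') := by
  rcases h with h | ⟨h1, h2⟩
  · exact Or.inl ⟨h, rfl⟩
  refine Or.inr ⟨h1, h2, ?_⟩
  rcases h' with h' | ⟨h1', h2'⟩
  · have a1 : p ≠ p' := fun e => hpq' (by rw [← h', ← e, h1])
    have a2 : p ≠ q' := fun e => hpq' (by rw [← hμ p', h', ← e, h1])
    have a3 : q ≠ p' := fun e => hpq' (by rw [← h', ← e, h2])
    have a4 : q ≠ q' := fun e => hpq' (by rw [← hμ p', h', ← e, h2])
    rw [ee_e_other a1 a2, ee_e_other a3 a4]
  · rcases hk with ⟨hk, -⟩ | ⟨-, -, hk⟩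
    · exact absurd (h1'.symm.trans hk) hpq'
    · have key : ∀ a b c d : ZMod 2, a + b = c + d → a + c = b + d := by decide
      have ee_e' : ∀ c d x : C,
          (ee c d).e x = (if c = x then 1 else 0) + (if d = x then 1 else 0) := by
        intro c d x
        simp only [ee_e, eq_comm]
      rw [ee_e', ee_e'] at hk
      rw [ee_e, ee_e]
      exact key _ _ _ _ hk

theorem kind_overlap {C : Type*} [DecidableEq C] {μ : Perm C} (hμ : ∀ c, μ (μ c) = c)
    {p q p' q' : C} (hpq : p ≠ q) (hpq' : p' ≠ q')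
    (h' : μ p' = q' ∨ (μ p' = p' ∧ μ q' = q')) (hk : Kind μ p q (ee p' q'))
    (hd : ¬ Disjoint ({p, q} : Finset C) {p', q'}) : (p = p' ∧ q = q') ∨ (p = q' ∧ q = p') := by
  simp only [Finset.disjoint_insert_left, Finset.disjoint_singleton_left, Finset.mem_insert,
    Finset.mem_singleton, not_and_or, not_not] at hd
  rcases hk with ⟨h, -⟩ | ⟨h1, h2, hk⟩
  · have hq : μ q = p := by rw [← h, hμ]
    rcases h' with h' | ⟨h1', h2'⟩
    · have hq' : μ q' = p' := by rw [← h', hμ]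
      rcases hd with (e | e) | (e | e)
      · exact Or.inl ⟨e, by rw [← h, ← h', e]⟩
      · exact Or.inr ⟨e, by rw [← h, ← hq', e]⟩
      · exact Or.inr ⟨by rw [← hq, ← h', e], e⟩
      · exact Or.inl ⟨by rw [← hq, ← hq', e], e⟩
    · exfalso
      rcases hd with (e | e) | (e | e)
      · exact hpq (by rw [← h, e, h1'])
      · exact hpq (by rw [← h, e, h2'])
      · exact hpq (by rw [← hq, e, h1'])
      · exact hpq (by rw [← hq, e, h2'])
  · have key : ∀ x, (ee p' q').e x = 1 → x = p' ∨ x = q' := by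
      intro x hx
      by_contra hn
      push Not at hn
      rw [ee_e_other hn.1 hn.2] at hx
      exact absurd hx (by decide)
    have hp : (ee p' q').e p = 1 := by
      rcases hd with (e | e) | (e | e)
      · rw [e, ee_e_left hpq']
      · rw [e, ee_e_right hpq']
      · rw [hk, e, ee_e_left hpq']
      · rw [hk, e, ee_e_right hpq']
    rcases key p hp with e | e <;> rcases key q (hk ▸ hp) with e' | e'
    · exact absurd (e.trans e'.symm) hpq
    · exact Or.inl ⟨e, e'⟩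
    · exact Or.inr ⟨e, e'⟩
    · exact absurd (e.trans e'.symm) hpq

namespace Setup

variable (S : Setup G B)

theorem σ_comm (w : W (B × ZMod 2)) : S.σ w * S.t = S.t * S.σ w := by
  rw [← S.σz, ← map_mul, ← map_mul, z_comm]

theorem σ_inj : Function.Injective S.σ := fun a b h => by rw [← S.πσ a, h, S.πσ]

theorem π_one : S.π 1 = 1 := by simpa using S.πσ 1

theorem π_inv {x : G} (hx : x * S.t = S.t * x) : S.π x⁻¹ = (S.π x)⁻¹ := by
  have hx' : x⁻¹ * S.t = S.t * x⁻¹ := (Commute.inv_left (a := x) hx).eq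
  rw [eq_inv_iff_mul_eq_one, ← S.π_mul _ _ hx' hx, inv_mul_cancel, π_one]

theorem π_conj {x : G} (hx : x * S.t = S.t * x) (a : W (B × ZMod 2)) :
    S.π (x * S.σ a * x⁻¹) = S.π x * a * (S.π x)⁻¹ := by
  have hx' : x⁻¹ * S.t = S.t * x⁻¹ := (Commute.inv_left (a := x) hx).eq
  rw [S.π_mul _ _ (Commute.mul_left (a := x) hx (S.σ_comm a)).eq hx', S.π_mul _ _ hx (S.σ_comm a),
    S.πσ, S.π_inv hx]

/-- The conjugate setup. -/
def conj (g : G) : Setup G B where
  t := g * S.t * g⁻¹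
  σ := (MulAut.conj g).toMonoidHom.comp S.σ
  π x := S.π (g⁻¹ * x * g)
  π_mul x y hx hy := by
    have key : ∀ x, x * (g * S.t * g⁻¹) = g * S.t * g⁻¹ * x →
        g⁻¹ * x * g * S.t = S.t * (g⁻¹ * x * g) := by
      intro x hx
      calc g⁻¹ * x * g * S.t = g⁻¹ * (x * (g * S.t * g⁻¹)) * g := by group
        _ = _ := by rw [hx]; group
    rw [← S.π_mul _ _ (key x hx) (key y hy)]
    congr 1; group
  πσ w := by
    have : g⁻¹ * ((MulAut.conj g).toMonoidHom.comp S.σ) w * g = S.σ w := by simp [mul_assoc]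
    rw [this, S.πσ]
  σz := by simp [S.σz]
  odd := by
    rw [MonoidHom.range_comp]
    have := index_map_equiv S.σ.range (MulAut.conj g)
    exact this ▸ S.odd

theorem conj_t (g : G) : (S.conj g).t = g * S.t * g⁻¹ := rfl

theorem conj_σ (g : G) (w : W (B × ZMod 2)) : (S.conj g).σ w = g * S.σ w * g⁻¹ := rfl

/-- The standard elementary abelian subgroups in `G`. -/
def A (I : Finset B) : Subgroup G := (W.A I).map S.σ

theorem mem_A {I : Finset B} {x : G} : x ∈ S.A I ↔ ∃ a ∈ W.A I, S.σ a = x := Iff.rfl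

theorem σ_mem_A {I : Finset B} {a : W (B × ZMod 2)} : S.σ a ∈ S.A I ↔ a ∈ W.A I :=
  ⟨fun ⟨_, hb, e⟩ => S.σ_inj e ▸ hb, fun h => ⟨a, h, rfl⟩⟩

theorem conj_A (g : G) (I : Finset B) : (S.conj g).A I = cj g (S.A I) := by
  rw [A, A, cj, map_map]; rfl

theorem A_sq {I : Finset B} {x : G} (hx : x ∈ S.A I) : x * x = 1 := by
  obtain ⟨a, ha, rfl⟩ := hx
  rw [← map_mul, Am_sq ha, map_one]

theorem card_A (I : Finset B) : 2 ^ Fintype.card (B × ZMod 2) ≤ Nat.card (S.A I) := by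
  rw [A, card_map_of_injective S.σ_inj]
  exact W.card_A I

theorem pgroup_of_sq {A : Subgroup G} (hA : ∀ a ∈ A, a * a = 1) : IsPGroup 2 A :=
  fun a => ⟨1, Subtype.ext (by simpa [pow_two] using hA a a.2)⟩

theorem exists_conj_le {Q K : Subgroup G} (hQ : IsPGroup 2 Q) (hQK : Q ≤ K)
    (hK : S.σ.range ≤ K) : ∃ k ∈ K, Q ≤ cj k S.σ.range := by
  have : Fact (Nat.Prime 2) := ⟨Nat.prime_two⟩
  obtain ⟨P, hP⟩ := exists_isSylowIn 2 S.σ.range
  have h1 : IsSylowIn 2 P ⊤ := by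
    refine IsSylowIn.of_not_dvd_relIndex le_top hP.pgroup ?_
    rw [relIndex_top_right, ← relIndex_mul_index hP.le]
    intro h
    rcases (Nat.Prime.dvd_mul Nat.prime_two).mp h with h | h
    · exact hP.not_dvd_relIndex h
    · exact (Nat.not_even_iff_odd.mpr S.odd) (even_iff_two_dvd.mpr h)
  obtain ⟨P', hP', hQP⟩ := exists_isSylowIn_ge hQ hQK
  obtain ⟨k, hk, e⟩ := (h1.of_le (hP.le.trans hK) le_top).exists_cj_eq hP'
  exact ⟨k, hk, hQP.trans (e ▸ cj_mono k hP.le)⟩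

theorem conj_range (g : G) : (S.conj g).σ.range = cj g S.σ.range := MonoidHom.range_comp _ _

theorem model {A Q K : Subgroup G} (hQ : IsPGroup 2 Q) (hQK : Q ≤ K) (hK : S.σ.range ≤ K)
    (hAQ : A ≤ Q) (hA : ∀ a ∈ A, a * a = 1) (hc : 2 ^ Fintype.card (B × ZMod 2) ≤ Nat.card A) :
    ∃ g ∈ K, ∃ I, Q ≤ (S.conj g).σ.range ∧ (S.conj g).A I = A := by
  obtain ⟨k, hk, hle⟩ := S.exists_conj_le hQ hQK hK
  set A1 := (cj k⁻¹ A).comap S.σ with hA1
  have h1 : A1.map S.σ = cj k⁻¹ A :=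
    map_comap_eq_self (by rw [cj_le_iff, inv_inv]; exact hAQ.trans hle)
  have h2 : Nat.card A1 = Nat.card A := by
    rw [← card_cj k⁻¹ A, ← h1, card_map_of_injective S.σ_inj]
  have h3 : ∀ a ∈ A1, a * a = 1 := by
    intro a ha
    apply S.σ_inj
    rw [hA1, mem_comap, mem_cj, inv_inv] at ha
    have := hA _ ha
    rw [map_mul, map_one]
    calc S.σ a * S.σ a = k⁻¹ * (k * S.σ a * k⁻¹ * (k * S.σ a * k⁻¹)) * k := by group
      _ = 1 := by rw [this]; group
  obtain ⟨μ, hμ, e⟩ := eq_Am A1 h3 (h2 ▸ hc)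
  obtain ⟨I, s, hs⟩ := exists_std hμ
  refine ⟨k * S.σ (P s), mul_mem hk (hK ⟨_, rfl⟩), I, ?_, ?_⟩
  · rw [conj_range, cj_mul, cj_eq_self (le_normalizer (MonoidHom.mem_range.mpr ⟨_, rfl⟩))]
    exact hle
  · refine eq_of_le_of_card_ge ?_ ?_
    · rintro _ ⟨a, ha, rfl⟩
      have h4 : P s * a * (P s)⁻¹ ∈ A1 := e ▸ conj_mem_Am (P s) hs ha
      rw [hA1, mem_comap, mem_cj, inv_inv] at h4
      rw [conj_σ]
      convert h4 using 1
      simp only [map_mul, map_inv]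
      group
    · rw [← h2]
      exact (card_le A1 (comm_of_sq' h3)).trans ((S.conj _).card_A I)

variable {S}

/-- The data of a transvection fixing `t`. -/
structure StdTv (S : Setup G B) (I : Finset B) {A : Subgroup G} (τ : MulAut A) (c : A)
    (p q : B × ZMod 2) : Prop where
  ne : p ≠ q
  cen : (c : G) = S.σ (ee p q)
  typ : mu I p = q ∨ (mu I p = p ∧ mu I q = q)
  fix : ∀ x : A, ∀ a ∈ W.A I, (x : G) = S.σ a → (τ x = x ↔ Kind (mu I) p q a)

theorem exists_ind_σ {I : Finset B} {A : Subgroup G} (hA : S.A I = A) {τ : MulAut A} {g : G}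
    (hg : Ind τ g) (ht : g * S.t = S.t * g) : Ind τ (S.σ (S.π g)) := by
  subst hA
  rintro ⟨_, a, ha, rfl⟩
  obtain ⟨a', -, e⟩ := (τ ⟨S.σ a, a, ha, rfl⟩).2
  have h1 := hg ⟨S.σ a, a, ha, rfl⟩
  rw [← e] at h1 ⊢
  have h2 := congrArg S.π h1
  rw [S.πσ, S.π_conj ht] at h2
  rw [h2, map_mul, map_mul, map_inv]

theorem t_mem {I : Finset B} : S.t ∈ S.A I := ⟨z, z_mem_Am, S.σz⟩

theorem comm_of_fix {A : Subgroup G} {τ : MulAut A} {g : G} (hg : Ind τ g) {x : A}
    (hx : τ x = x) : g * x = x * g := by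
  have := hg x
  rw [hx] at this
  exact (mul_inv_eq_iff_eq_mul.mp this.symm)

theorem exists_std {I : Finset B} {A : Subgroup G} (hA : S.A I = A) {τ : MulAut A} {c : A}
    (hτ : τ ∈ XX A) (h : Tv τ c) {x : A} (hx : (x : G) = S.t) (hτx : τ x = x) :
    ∃ p q, StdTv S I τ c p q := by
  obtain ⟨g, -, hg⟩ := mem_XX.mp hτ
  have h1 := exists_ind_σ hA hg (hx ▸ comm_of_fix hg hτx)
  set w := S.π g
  subst hA
  obtain ⟨c0, hc0, ec⟩ := c.2
  have key : ∀ (x : S.A I) (a), (x : G) = S.σ a → (τ x = x ↔ w * a * w⁻¹ = a) := by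
    intro x a e
    rw [Subtype.ext_iff, h1 x, e, ← map_inv, ← map_mul, ← map_mul, S.σ_inj.eq_iff]
  obtain ⟨p, q, h2, h3, h4, h5⟩ := tv_class (w := w) hc0 (by
    intro a ha
    rcases h.act ⟨S.σ a, a, ha, rfl⟩ with e | e
    · exact Or.inl ((key _ a rfl).1 e)
    · right
      have := h1 ⟨S.σ a, a, ha, rfl⟩
      rw [e] at this
      apply S.σ_inj
      simp only [map_mul, map_inv]
      rw [← this, ec]
      rfl) (by
    obtain ⟨⟨_, a, ha, rfl⟩, e⟩ := h.exists_ne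
    exact ⟨a, ha, fun e' => e ((key _ a rfl).2 e')⟩)
  exact ⟨p, q, h2, by rw [← ec, h3], h4, fun x a ha e => (key x a e).trans (h5 a ha)⟩

theorem StdTv.ee_mem {I : Finset B} {A : Subgroup G} {τ : MulAut A} {c : A} {p q : B × ZMod 2}
    (h : StdTv S I τ c p q) : ee p q ∈ W.A I := by
  rcases h.typ with e | ⟨e1, e2⟩
  · rw [← e]; exact ee_mem_pair p
  · exact ee_mem_fix e1 e2

theorem StdTv.symm {I : Finset B} {A : Subgroup G} {τ : MulAut A} {c : A} {p q : B × ZMod 2}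
    (h : StdTv S I τ c p q) : StdTv S I τ c q p := by
  refine ⟨h.ne.symm, by rw [h.cen, ee_comm], ?_, fun x a ha e => (h.fix x a ha e).trans
    ⟨kind_symm ha, kind_symm ha⟩⟩
  rcases h.typ with e | ⟨e1, e2⟩
  · left; rw [← e, mu_mu]
  · exact Or.inr ⟨e2, e1⟩

theorem StdTv.eq {I : Finset B} {A : Subgroup G} (hA : S.A I = A) {τ τ' : MulAut A} {c c' : A}
    {p q : B × ZMod 2} (h : StdTv S I τ c p q) (h' : StdTv S I τ' c' p q) (ht : Tv τ c)
    (ht' : Tv τ' c') : τ = τ' := by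
  have : c = c' := Subtype.ext (h.cen.trans h'.cen.symm)
  subst this
  subst hA
  refine ht.ext ht' ?_
  rintro ⟨_, a, ha, rfl⟩
  rw [h.fix _ a ha rfl, h'.fix _ a ha rfl]

theorem good (S : Setup G B) {A : Subgroup G} (hA : ∀ a ∈ A, a * a = 1)
    (hc : 2 ^ Fintype.card (B × ZMod 2) ≤ Nat.card A) : Good (XX A) (Fintype.card B) := by
  classical
  have : Fact (Nat.Prime 2) := ⟨Nat.prime_two⟩
  intro R hRX hR
  have h2 : ∀ a : A, a * a = 1 := fun a => Subtype.ext (hA a a.2)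
  obtain ⟨P, hP⟩ := exists_isSylowIn 2 (R.comap A.normalizerMonoidHom)
  have h3 : P.map A.normalizerMonoidHom = R := by
    have := hP.map A.normalizerMonoidHom
    rw [map_comap_eq_self hRX] at this
    exact (this.max R le_rfl hR this.le).symm
  set Q := P.map (normalizer (A : Set G)).subtype with hQ
  have hQN : Q ≤ normalizer (A : Set G) := map_subtype_le _
  have h4 : IsPGroup 2 (Q ⊔ A : Subgroup G) :=
    (hP.pgroup.map _).to_sup_of_normal_right' (pgroup_of_sq hA) hQN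
  obtain ⟨g, -, I, hle, e⟩ := S.model h4 le_top le_top le_sup_right hA hc
  set S' := S.conj g
  have ht : S'.t ∈ A := e ▸ t_mem
  have h5 : ∀ τ ∈ R, ∀ c, Tv τ c → ∃ p q, StdTv S' I τ c p q := by
    intro τ hτ c h
    refine exists_std e (hRX hτ) h (x := ⟨_, ht⟩) rfl ?_
    rw [← h3] at hτ
    obtain ⟨x, hx, rfl⟩ := hτ
    obtain ⟨w, hw⟩ := hle (mem_sup_left (⟨x, hx, rfl⟩ : (x : G) ∈ Q))
    apply Subtype.ext
    change (x : G) * S'.t * (x : G)⁻¹ = S'.t
    rw [← hw, S'.σ_comm, mul_inv_cancel_right]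
  have h6 : ∀ τ ∈ R, ∀ τ' ∈ R, ∀ c c', Tv τ c → Tv τ' c' → τ c' = c' := by
    intro τ hτ τ' hτ' c c' h h'
    obtain ⟨p, q, hs⟩ := h5 τ hτ c h
    obtain ⟨p', q', hs'⟩ := h5 τ' hτ' c' h'
    by_contra hne
    refine h.not_pgroup h2 h' hne (fun h7 => hne ?_) hR hτ hτ'
    rw [hs.fix c' _ hs'.ee_mem hs'.cen]
    exact kind_ee_symm (mu_mu I) hs.ne hs'.ne hs.typ hs'.typ
      ((hs'.fix c _ hs.ee_mem hs.cen).1 h7)
  refine ⟨h6, fun F hF => ?_⟩
  have h7 : ∀ τ : F, ∃ c p q, Tv τ.1 c ∧ StdTv S' I τ.1 c p q := by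
    rintro ⟨τ, hτ⟩
    obtain ⟨h8, c, h⟩ := hF τ hτ
    obtain ⟨p, q, hs⟩ := h5 τ h8 c h
    exact ⟨c, p, q, h, hs⟩
  choose c p q hT hS using h7
  have h8 : (Finset.univ.biUnion fun τ : F => ({p τ, q τ} : Finset (B × ZMod 2))).card =
      ∑ τ : F, ({p τ, q τ} : Finset (B × ZMod 2)).card := by
    apply Finset.card_biUnion
    intro τ _ τ' _ hne
    by_contra hd
    apply hne
    have h9 := (hS τ).fix (c τ') _ (hS τ').ee_mem (hS τ').cen
    rw [h6 τ.1 (hF _ τ.2).1 τ'.1 (hF _ τ'.2).1 _ _ (hT τ) (hT τ')] at h9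
    rcases kind_overlap (mu_mu I) (hS τ).ne (hS τ').ne (hS τ').typ (h9.1 rfl) hd with
      ⟨e1, e2⟩ | ⟨e1, e2⟩
    · exact Subtype.ext ((hS τ).eq e (e1 ▸ e2 ▸ hS τ') (hT τ) (hT τ'))
    · exact Subtype.ext ((hS τ).eq e (e1 ▸ e2 ▸ (hS τ').symm) (hT τ) (hT τ'))
  have h9 := Finset.card_le_univ
    (Finset.univ.biUnion fun τ : F => ({p τ, q τ} : Finset (B × ZMod 2)))
  rw [h8, Finset.sum_congr rfl fun τ _ => Finset.card_pair (hS τ).ne, Fintype.card_prod,
    ZMod.card] at h9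
  simp only [Finset.univ_eq_attach, Finset.sum_const, Finset.card_attach, smul_eq_mul] at h9
  omega

/-- Construction of transvections from elements of `W`. -/
theorem exists_tv {I : Finset B} {A : Subgroup G} (hA : S.A I = A) {w : W (B × ZMod 2)}
    {p q : B × ZMod 2} (hpq : p ≠ q) (htyp : mu I p = q ∨ (mu I p = p ∧ mu I q = q))
    (K : W (B × ZMod 2) → Prop) [DecidablePred K] (hK : ∀ a ∈ W.A I, K a ↔ Kind (mu I) p q a)
    (hw : ∀ a ∈ W.A I, w * a * w⁻¹ = if K a then a else a * ee p q)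
    (hne : ∃ a ∈ W.A I, ¬ K a) : ∃ τ ∈ XX A, ∃ c : A, Tv τ c ∧ StdTv S I τ c p q := by
  subst hA
  have hc0 : ee p q ∈ W.A I := by
    rcases htyp with e | ⟨e1, e2⟩
    · rw [← e]; exact ee_mem_pair p
    · exact ee_mem_fix e1 e2
  have h1 : S.σ w ∈ normalizer (S.A I : Set G) := by
    apply mem_normalizer_of_cj_le
    rintro _ ⟨_, ⟨a, ha, rfl⟩, rfl⟩
    refine ⟨w * a * w⁻¹, ?_, by simp⟩
    rw [hw a ha]
    split_ifs
    · exact ha
    · exact mul_mem ha hc0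
  obtain ⟨τ, hτ, hi⟩ := exists_ind h1
  have key : ∀ (x : S.A I), ∀ a ∈ W.A I, (x : G) = S.σ a →
      (τ x : G) = S.σ (if K a then a else a * ee p q) := by
    intro x a ha e
    rw [hi x, e, ← hw a ha, map_mul, map_mul, map_inv]
  have key2 : ∀ (x : S.A I), ∀ a ∈ W.A I, (x : G) = S.σ a → (τ x = x ↔ K a) := by
    intro x a ha e
    rw [Subtype.ext_iff, key x a ha e, e, S.σ_inj.eq_iff]
    split_ifs with h
    · simp [h]
    · simp [h, ee_ne_one hpq]
  refine ⟨τ, hτ, ⟨S.σ (ee p q), _, hc0, rfl⟩, ⟨?_, ?_, ?_⟩, hpq, rfl, htyp,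
    fun x a ha e => (key2 x a ha e).trans (hK a ha)⟩
  · intro e
    have := congrArg Subtype.val e
    exact ee_ne_one hpq (S.σ_inj (this.trans (map_one _).symm))
  · intro e
    obtain ⟨a, ha, hKa⟩ := hne
    exact hKa ((key2 ⟨S.σ a, a, ha, rfl⟩ a ha rfl).1 (by rw [e]; rfl))
  · rintro ⟨_, a, ha, rfl⟩
    by_cases h : K a
    · exact Or.inl ((key2 _ a ha rfl).2 h)
    · right
      apply Subtype.ext
      rw [key _ a ha rfl, if_neg h, map_mul]
      rfl

theorem exists_tv' {I : Finset B} {A : Subgroup G} (hA : S.A I = A)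
    {p q : B × ZMod 2} (hpq : p ≠ q) (htyp : mu I p = q ∨ (mu I p = p ∧ mu I q = q)) :
    ∃ τ ∈ XX A, ∃ c : A, Tv τ c ∧ StdTv S I τ c p q := by
  rcases htyp with e | ⟨e1, e2⟩
  · refine exists_tv hA (w := E (Pi.single p 1)) hpq (Or.inl e) (fun a => a.s p = p) ?_ ?_ ?_
    · intro a _
      exact ⟨fun h => Or.inl ⟨e, h⟩, fun h => h.elim (fun h => h.2)
        fun h => absurd (h.1.symm.trans e) hpq⟩
    · intro a ha
      rw [← e]; exact conj_single p ha
    · exact ⟨_, swap_mem p, by simp [e, hpq.symm]⟩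
  · refine exists_tv hA (w := P (swap p q)) hpq (Or.inr ⟨e1, e2⟩) (fun a => a.e p = a.e q) ?_ ?_ ?_
    · intro a _
      exact ⟨fun h => Or.inr ⟨e1, e2, h⟩, fun h => h.elim
        (fun h => absurd (e1.symm.trans h.1) hpq) fun h => h.2.2⟩
    · intro a ha
      exact conj_swap e1 e2 ha
    · exact ⟨_, single_mem e1, by simp [hpq.symm]⟩

theorem typ_std (I : Finset B) (b : B) :
    mu I (b, 0) = (b, 1) ∨ (mu I (b, 0) = (b, 0) ∧ mu I (b, 1) = (b, 1)) := by
  by_cases hb : b ∈ I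
  · exact Or.inl (mu_zero hb)
  · exact Or.inr ⟨mu_eq_self.mpr hb, mu_eq_self.mpr hb⟩

theorem kind_y (I J : Finset B) (b : B) : Kind (mu I) (b, 0) (b, 1) (y J) := by
  rcases typ_std I b with e | ⟨e1, e2⟩
  · exact Or.inl ⟨e, rfl⟩
  · exact Or.inr ⟨e1, e2, rfl⟩

theorem exists_frame {I : Finset B} {A : Subgroup G} (hA : S.A I = A) :
    ∃ (τ : B → MulAut A) (c : B → A), Frame (XX A) τ c ∧ (∀ b, (c b : G) = S.σ (y {b})) ∧
      (∀ b, StdTv S I (τ b) (c b) (b, 0) (b, 1)) ∧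
      ∀ b J (x : A), (x : G) = S.σ (y J) → τ b x = x := by
  have h1 := fun b : B => exists_tv' hA (p := (b, 0)) (q := (b, 1)) (by simp) (typ_std I b)
  choose τ hτ c hT hS using h1
  have h2 : ∀ b, (c b : G) = S.σ (y {b}) := fun b => by rw [(hS b).cen, y_single]
  have h3 : ∀ b J (x : A), (x : G) = S.σ (y J) → τ b x = x := fun b J x e =>
    ((hS b).fix x _ (y_mem I J) e).2 (kind_y I J b)
  refine ⟨τ, c, ⟨hτ, hT, fun b b' => h3 b _ _ (h2 b'), fun b b' e => ?_⟩, h2, hS, h3⟩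
  have := (h2 b).symm.trans ((congrArg Subtype.val e).trans (h2 b'))
  simpa using y_injective (S.σ_inj this)

/-- Two models of the same subgroup are conjugate. -/
theorem frame_conj {S S' : Setup G B} {I I' : Finset B} {A : Subgroup G} (hA : S.A I = A)
    (hA' : S'.A I' = A) {J J' : Finset B} (hJ : S'.σ (y J) = S.σ (y J')) :
    ∃ g ∈ normalizer (A : Set G), g * S.σ (y J') * g⁻¹ = S.σ (y J') ∧
      ∃ φ : B ≃ B, ∀ K, g * S'.σ (y K) * g⁻¹ = S.σ (y (K.map φ.toEmbedding)) := by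
  obtain ⟨τ, c, hF, hc, -, hy⟩ := exists_frame hA
  obtain ⟨τ', c', hF', hc', -, hy'⟩ := exists_frame hA'
  have hsq : ∀ a ∈ A, a * a = 1 := hA ▸ fun a ha => S.A_sq ha
  have hm : S.σ (y J') ∈ A := hA ▸ S.σ_mem_A.mpr (y_mem I J')
  obtain ⟨x, hx, hxy, φ, hφ⟩ := (S.good hsq (hA ▸ S.card_A I)).frame_conj
    (fun a => Subtype.ext (hsq a a.2)) hF' hF (y := ⟨_, hm⟩) (fun b => hy' b J _ hJ.symm)
    (fun b => hy b J' _ rfl)
  obtain ⟨g, hg, hi⟩ := mem_XX.mp hx
  refine ⟨g, hg, ?_, φ, fun K => ?_⟩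
  · have := hi ⟨_, hm⟩
    rw [hxy] at this
    exact this.symm
  · induction K using Finset.induction_on with
    | empty => simp [y_empty]
    | insert b K hb ih =>
      rw [Finset.map_insert, y_insert hb, y_insert (by simpa using hb), map_mul, map_mul, ← ih,
        ← hc', Equiv.coe_toEmbedding, ← hc, ← hφ, hi]
      group

theorem factor {I : Finset B} {g : G} (hg : ∀ a ∈ S.A I, g⁻¹ * a * g ∈ centralizer {S.t}) :
    ∃ x ∈ normalizer (S.A I : Set G), ∃ h, h * S.t = S.t * h ∧ g = x * h := by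
  have hsq : ∀ a ∈ S.A I, a * a = 1 := fun a ha => S.A_sq ha
  obtain ⟨k, hk, I', -, e⟩ := (S.conj g).model (K := centralizer {(S.conj g).t})
    (pgroup_of_sq hsq) (by
      intro a ha
      rw [conj_t, ← cj_centralizer_singleton, mem_cj]
      exact hg a ha) (by
      rintro _ ⟨w, rfl⟩
      exact mem_centralizer_singleton_iff.mpr ((S.conj g).σ_comm w)) le_rfl hsq (S.card_A I)
  obtain ⟨x, hx, -, φ, hφ⟩ := frame_conj (S := S) rfl e (J := ∅) (J' := ∅) (by simp [y_empty])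
  have h1 := hφ Finset.univ
  rw [Finset.map_univ_equiv, y_univ, σz, σz, conj_t, mem_centralizer_singleton_iff.mp hk,
    mul_inv_cancel_right, conj_t] at h1
  refine ⟨x⁻¹, inv_mem hx, x * g, ?_, by group⟩
  calc x * g * S.t = x * (g * S.t * g⁻¹) * x⁻¹ * (x * g) := by group
    _ = _ := by rw [h1]

end Setup

end Cfsg.Agent.KO
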