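import Mathlib

/-!
# Signed permutations (the Weyl group of type `B`) and their elementary abelian subgroups
-/

set_option autoImplicit false
set_option linter.unusedSectionVars false

namespace Cfsg.Agent.KO

open Subgroup Equiv

/-- Signed permutations of `C`. -/
@[ext] structure W (C : Type*) where
  e : C → ZMod 2
  s : Perm C

theorem zm_add_self (x : ZMod 2) : x + x = 0 := by revert x; decide

theorem zm_cases (x : ZMod 2) : x = 0 ∨ x = 1 := by revert x; decide

theorem zm_eq_of_add {x y : ZMod 2} (h : x + y = 0) : x = y := by revert x y; decide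

namespace W

variable {C : Type*}

instance : Mul (W C) := ⟨fun a b => ⟨fun c => b.e c + a.e (b.s c), a.s * b.s⟩⟩
instance : One (W C) := ⟨⟨0, 1⟩⟩
instance : Inv (W C) := ⟨fun a => ⟨fun c => a.e (a.s⁻¹ c), a.s⁻¹⟩⟩

@[simp] theorem mul_e (a b : W C) (c : C) : (a * b).e c = b.e c + a.e (b.s c) := rfl
@[simp] theorem mul_s (a b : W C) : (a * b).s = a.s * b.s := rfl
@[simp] theorem one_e : (1 : W C).e = 0 := rfl
@[simp] theorem one_s : (1 : W C).s = 1 := rfl
@[simp] theorem inv_e (a : W C) (c : C) : (a⁻¹).e c = a.e (a.s⁻¹ c) := rfl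
@[simp] theorem inv_s (a : W C) : (a⁻¹).s = a.s⁻¹ := rfl

instance : Group (W C) where
  mul_assoc a b c := by
    ext x
    · simp [add_assoc]
    · simp
  one_mul a := by ext x <;> simp
  mul_one a := by ext x <;> simp
  inv_mul_cancel a := by
    ext x
    · simp [zm_add_self]
    · simp

instance [Finite C] : Finite (W C) :=
  Finite.of_injective (fun a : W C => (a.e, a.s)) fun a b h => by
    simp only [Prod.mk.injEq] at h
    exact W.ext h.1 h.2

/-- Sign changes. -/
def E (η : C → ZMod 2) : W C := ⟨η, 1⟩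
/-- Pure permutations. -/
def P (s : Perm C) : W C := ⟨0, s⟩

@[simp] theorem E_e (η : C → ZMod 2) : (E η).e = η := rfl
@[simp] theorem E_s (η : C → ZMod 2) : (E η).s = 1 := rfl
@[simp] theorem P_e (s : Perm C) : (P s).e = 0 := rfl
@[simp] theorem P_s (s : Perm C) : (P s).s = s := rfl

theorem E_mul (η η' : C → ZMod 2) : E η * E η' = E (η + η') := by
  ext x <;> simp [add_comm]

theorem eq_E {a : W C} (h : a.s = 1) : a = E a.e := W.ext rfl h

theorem conj_s (w a : W C) : (w * a * w⁻¹).s = w.s * a.s * w.s⁻¹ := rfl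

theorem conj_e (w a : W C) (c : C) :
    (w * a * w⁻¹).e (w.s c) = a.e c + w.e c + w.e (a.s c) := by
  simp only [mul_e, inv_e, inv_s, Perm.inv_def, symm_apply_apply]
  ring

theorem conj_E (w : W C) (η : C → ZMod 2) : w * E η * w⁻¹ = E (fun c => η (w.s⁻¹ c)) := by
  ext c
  · obtain ⟨c, rfl⟩ := w.s.surjective c
    rw [conj_e]
    simp [add_assoc, zm_add_self]
  · simp

/-- The permutation part. -/
def bar : W C →* Perm C where
  toFun := W.s
  map_one' := rfl
  map_mul' _ _ := rfl

/-- The central involution. -/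
def z : W C := E 1

/-- The elementary abelian subgroup attached to an involution `μ`. -/
def Am (μ : Perm C) (hμ : ∀ c, μ (μ c) = c) : Subgroup (W C) where
  carrier := {a | ∀ c, (a.s c = c ∨ a.s c = μ c) ∧ a.e (μ c) = a.e c}
  one_mem' := fun c => by simp
  mul_mem' := by
    intro a b ha hb c
    simp only [mul_s, Perm.mul_apply, mul_e]
    have h1 := ha c
    have h2 := ha (μ c)
    have h3 := hb c
    have h4 := hb (μ c)
    rw [hμ] at h2 h4
    refine ⟨?_, ?_⟩
    · rcases h3.1 with e | e <;> rw [e]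
      · exact h1.1
      · exact h2.1.symm
    · rw [h3.2]
      rcases h3.1 with e | e <;> rcases h4.1 with e' | e' <;> rw [e, e'] <;> rw [h1.2]
  inv_mem' := by
    intro a ha c
    have hs : ∀ c, a.s (a.s c) = c := by
      intro c
      rcases (ha c).1 with e | e
      · rw [e, e]
      · rcases (ha (μ c)).1 with e' | e'
        · have : μ c = c := a.s.injective (by rw [e', e])
          rw [e, e', this]
        · rw [e, e', hμ]
    have hi : ∀ c, a.s⁻¹ c = a.s c := fun c => by
      rw [Perm.inv_eq_iff_eq, hs]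
    simp only [inv_s, inv_e, hi]
    refine ⟨(ha c).1, ?_⟩
    have h2 := ha (μ c)
    rw [hμ] at h2
    rcases (ha c).1 with e | e <;> rcases h2.1 with e' | e' <;> rw [e, e'] <;> rw [(ha c).2]

variable {μ : Perm C} {hμ : ∀ c, μ (μ c) = c}

theorem mem_Am {a : W C} :
    a ∈ Am μ hμ ↔ ∀ c, (a.s c = c ∨ a.s c = μ c) ∧ a.e (μ c) = a.e c := Iff.rfl

theorem Am_ss {a : W C} (ha : a ∈ Am μ hμ) (c : C) : a.s (a.s c) = c := by
  rcases (ha c).1 with e | e
  · rw [e, e]
  · rcases (ha (μ c)).1 with e' | e'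
    · have : μ c = c := a.s.injective (by rw [e', e])
      rw [e, e', this]
    · rw [e, e', hμ]

theorem Am_es {a : W C} (ha : a ∈ Am μ hμ) (c : C) : a.e (a.s c) = a.e c := by
  rcases (ha c).1 with e | e <;> rw [e]
  exact (ha c).2

theorem Am_sq {a : W C} (ha : a ∈ Am μ hμ) : a * a = 1 := by
  ext c
  · simp [Am_es ha, zm_add_self]
  · simp [Am_ss ha]

theorem Am_s_mu {a : W C} (ha : a ∈ Am μ hμ) (c : C) : a.s (μ c) = μ (a.s c) := by
  rcases (ha c).1 with e | e
  · rcases (ha (μ c)).1 with e' | e'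
    · rw [e, e']
    · rw [hμ] at e'
      have : μ c = c := a.s.injective (by rw [e', e])
      rw [e', e, this]
  · rw [← e, Am_ss ha, e, hμ]

theorem Am_fix_iff {a : W C} (ha : a ∈ Am μ hμ) (c : C) : a.s (μ c) = μ c ↔ a.s c = c := by
  rw [Am_s_mu ha, μ.injective.eq_iff]

theorem E_mem_Am {η : C → ZMod 2} : E η ∈ Am μ hμ ↔ ∀ c, η (μ c) = η c := by
  simp [mem_Am]

theorem z_mem_Am : (z : W C) ∈ Am μ hμ := E_mem_Am.mpr fun _ => rfl

theorem mem_Am_self {w : W C} (hw : w * w = 1) : ∃ h, w ∈ Am w.s h := by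
  have h1 : ∀ c, w.s (w.s c) = c := fun c => by
    have := congrArg (fun x : W C => x.s c) hw
    simpa using this
  refine ⟨h1, fun c => ⟨Or.inr rfl, ?_⟩⟩
  have := congrArg (fun x : W C => x.e c) hw
  simp only [mul_e, one_e, Pi.zero_apply] at this
  exact (zm_eq_of_add this).symm

theorem conj_mem_Am {ν : Perm C} {hν : ∀ c, ν (ν c) = c} (w : W C)
    (hw : ∀ c, ν (w.s c) = w.s (μ c)) {a : W C} (ha : a ∈ Am μ hμ) : w * a * w⁻¹ ∈ Am ν hν := by
  intro c
  obtain ⟨c, rfl⟩ := w.s.surjective c
  rw [hw, conj_e, conj_e, conj_s]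
  simp only [Perm.mul_apply, Perm.inv_def, symm_apply_apply, EmbeddingLike.apply_eq_iff_eq]
  refine ⟨(ha c).1, ?_⟩
  rw [(ha c).2, Am_s_mu ha]
  rcases (ha c).1 with e | e <;> rw [e]
  · ring_nf
    rw [show ∀ x : ZMod 2, x * 2 = 0 by decide, show ∀ x : ZMod 2, x * 2 = 0 by decide]
  · rw [hμ]; ring

/-! ### Elementary abelian subgroups of maximal order -/

section Bound

variable [Fintype C] [DecidableEq C]

theorem two_mul_le_two_pow {k : ℕ} (hk : 0 < k) : 2 * k ≤ 2 ^ k := by
  obtain ⟨k, rfl⟩ : ∃ j, k = j + 1 := ⟨k - 1, by omega⟩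
  have := Nat.lt_two_pow_self (n := k)
  rw [pow_succ]; omega

theorem two_mul_lt_two_pow {k : ℕ} (hk : 3 ≤ k) : 2 * k < 2 ^ k := by
  obtain ⟨k, rfl⟩ : ∃ j, k = j + 3 := ⟨k - 3, by omega⟩
  have := Nat.lt_two_pow_self (n := k)
  rw [pow_add]; omega

/-- The orbit relation of a subgroup. -/
def orb (A : Subgroup (W C)) : Setoid C where
  r c d := ∃ a ∈ A, a.s c = d
  iseqv :=
    { refl := fun c => ⟨1, one_mem _, rfl⟩
      symm := fun ⟨a, ha, h⟩ => ⟨a⁻¹, inv_mem ha, by rw [← h]; simp⟩
      trans := fun ⟨a, ha, h⟩ ⟨b, hb, h'⟩ => ⟨b * a, mul_mem hb ha, by rw [← h', ← h]; rfl⟩ }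

theorem card_le_prod (A : Subgroup (W C)) (hA : ∀ a ∈ A, ∀ b ∈ A, a * b = b * a)
    [Fintype (Quotient (orb A))] [DecidableEq (Quotient (orb A))] :
    Nat.card A ≤ ∏ q : Quotient (orb A),
      2 * (Finset.univ.filter fun c => Quotient.mk (orb A) c = q).card := by
  let f : A → (q : Quotient (orb A)) → ZMod 2 × {c // Quotient.mk (orb A) c = q} :=
    fun a q => (a.1.e q.out, ⟨a.1.s q.out, by
      conv_rhs => rw [← Quotient.out_eq q]
      exact (Quotient.sound (s := orb A) ⟨a.1, a.2, rfl⟩).symm⟩)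
  have hf : Function.Injective f := by
    intro a b hab
    have key : ∀ c, a.1.e c = b.1.e c ∧ a.1.s c = b.1.s c := by
      intro c
      obtain ⟨u, hu, huc⟩ : (orb A).r (Quotient.mk (orb A) c).out c := Quotient.mk_out c
      set c0 := (Quotient.mk (orb A) c).out
      have h0 := congrFun hab (Quotient.mk (orb A) c)
      simp only [f, Prod.mk.injEq, Subtype.mk.injEq] at h0
      have ha := hA a.1 a.2 u hu
      have hb := hA b.1 b.2 u hu
      have ha1 := congrArg (fun x : W C => x.e c0) ha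
      have ha2 := congrArg (fun x : W C => x.s c0) ha
      have hb1 := congrArg (fun x : W C => x.e c0) hb
      have hb2 := congrArg (fun x : W C => x.s c0) hb
      simp only [mul_e, mul_s, Perm.mul_apply, huc] at ha1 ha2 hb1 hb2
      refine ⟨?_, by rw [ha2, hb2, h0.2]⟩
      rw [h0.1, h0.2, ← hb1] at ha1
      exact add_left_cancel ha1
    exact Subtype.ext (W.ext (funext fun c => (key c).1) (Equiv.ext fun c => (key c).2))
  refine (Nat.card_le_card_of_injective f hf).trans (le_of_eq ?_)
  rw [Nat.card_pi]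
  refine Finset.prod_congr rfl fun q _ => ?_
  rw [Nat.card_prod, Nat.card_zmod, Nat.card_eq_fintype_card, Fintype.card_subtype]

theorem two_pow_eq_prod (A : Subgroup (W C))
    [Fintype (Quotient (orb A))] [DecidableEq (Quotient (orb A))] :
    2 ^ Fintype.card C = ∏ q : Quotient (orb A),
      2 ^ (Finset.univ.filter fun c => Quotient.mk (orb A) c = q).card := by
  rw [Finset.prod_pow_eq_pow_sum, ← Finset.card_eq_sum_card_fiberwise (by simp),
    Finset.card_univ]

theorem fiber_pos (A : Subgroup (W C)) [DecidableEq (Quotient (orb A))] (q : Quotient (orb A)) :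
    0 < (Finset.univ.filter fun c => Quotient.mk (orb A) c = q).card :=
  Finset.card_pos.mpr ⟨q.out, by simp⟩

theorem card_le (A : Subgroup (W C)) (hA : ∀ a ∈ A, ∀ b ∈ A, a * b = b * a) :
    Nat.card A ≤ 2 ^ Fintype.card C := by
  classical
  let _ : Fintype (Quotient (orb A)) := Fintype.ofFinite _
  rw [two_pow_eq_prod A]
  exact (card_le_prod A hA).trans
    (Finset.prod_le_prod' fun q _ => two_mul_le_two_pow (fiber_pos A q))

theorem comm_of_sq' {Γ : Type*} [Group Γ] {A : Subgroup Γ} (hA : ∀ a ∈ A, a * a = 1) :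
    ∀ a ∈ A, ∀ b ∈ A, a * b = b * a := by
  intro a ha b hb
  have h1 : ∀ x ∈ A, x⁻¹ = x := fun x hx => inv_eq_of_mul_eq_one_right (hA x hx)
  rw [← h1 (a * b) (mul_mem ha hb), mul_inv_rev, h1 a ha, h1 b hb]

/-- Elementary abelian subgroups of order at least `2 ^ |C|`. -/
theorem eq_Am (A : Subgroup (W C)) (hA : ∀ a ∈ A, a * a = 1)
    (hc : 2 ^ Fintype.card C ≤ Nat.card A) : ∃ μ hμ, A = Am μ hμ := by
  classical
  let _ : Fintype (Quotient (orb A)) := Fintype.ofFinite _
  have hcomm := comm_of_sq' hA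
  have hfib : ∀ q : Quotient (orb A),
      (Finset.univ.filter fun c => Quotient.mk (orb A) c = q).card ≤ 2 := by
    intro q
    by_contra hq
    have h1 := card_le_prod A hcomm
    have h2 := two_pow_eq_prod A
    have h3 : ∏ q : Quotient (orb A),
        2 * (Finset.univ.filter fun c => Quotient.mk (orb A) c = q).card <
        ∏ q : Quotient (orb A),
          2 ^ (Finset.univ.filter fun c => Quotient.mk (orb A) c = q).card :=
      Finset.prod_lt_prod (fun q _ => Nat.mul_pos two_pos (fiber_pos A q))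
        (fun q _ => two_mul_le_two_pow (fiber_pos A q))
        ⟨q, Finset.mem_univ _, two_mul_lt_two_pow (by omega)⟩
    omega
  have h3 : ∀ c d d', (orb A).r c d → (orb A).r c d' → d ≠ c → d' ≠ c → d = d' := by
    intro c d d' h h' hd hd'
    by_contra hne
    have h4 : ({c, d, d'} : Finset C) ⊆
        Finset.univ.filter fun x => Quotient.mk (orb A) x = Quotient.mk (orb A) c := by
      intro x hx
      simp only [Finset.mem_insert, Finset.mem_singleton] at hx
      rcases hx with rfl | rfl | rfl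
      · simp
      · simpa using (Quotient.sound h).symm
      · simpa using (Quotient.sound h').symm
    have h5 := (Finset.card_le_card h4).trans (hfib _)
    rw [Finset.card_eq_three.mpr ⟨c, d, d', hd.symm, hd'.symm, hne, rfl⟩] at h5
    omega
  let m : C → C := fun c => if h : ∃ d, (orb A).r c d ∧ d ≠ c then h.choose else c
  have hm1 : ∀ c d, (orb A).r c d → d ≠ c → m c = d := by
    intro c d h hd
    have hex : ∃ d, (orb A).r c d ∧ d ≠ c := ⟨d, h, hd⟩
    simp only [m, dif_pos hex]
    exact h3 c _ _ hex.choose_spec.1 h hex.choose_spec.2 hd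
  have hm2 : ∀ c, (orb A).r c (m c) := by
    intro c
    by_cases hex : ∃ d, (orb A).r c d ∧ d ≠ c
    · simp only [m, dif_pos hex]; exact hex.choose_spec.1
    · simp only [m, dif_neg hex]; exact (orb A).refl c
  have hm : Function.Involutive m := by
    intro c
    by_cases h : m c = c
    · rw [h, h]
    · exact hm1 _ _ ((orb A).symm (hm2 c)) (Ne.symm h)
  refine ⟨hm.toPerm m, hm, ?_⟩
  have hle : A ≤ Am (hm.toPerm m) hm := by
    intro a ha c
    have hs : ∀ a ∈ A, a.s c = c ∨ a.s c = m c := by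
      intro a ha
      by_cases h : a.s c = c
      · exact Or.inl h
      · exact Or.inr (hm1 c _ ⟨a, ha, rfl⟩ h).symm
    refine ⟨hs a ha, ?_⟩
    change a.e (m c) = a.e c
    obtain ⟨b, hb, hbc⟩ := hm2 c
    have h4 := congrArg (fun x : W C => x.e c) (hcomm a ha b hb)
    have h5 := congrArg (fun x : W C => x.e c) (hA b hb)
    simp only [mul_e, one_e, Pi.zero_apply, hbc] at h4 h5
    have h6 : b.e (a.s c) = b.e c := by
      rcases hs a ha with e | e <;> rw [e]
      exact (zm_eq_of_add h5).symm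
    rw [h6, add_comm] at h4
    exact add_right_cancel h4
  refine eq_of_le_of_card_ge hle ((card_le _ ?_).trans hc)
  exact comm_of_sq' fun a ha => Am_sq ha

end Bound

end W

end Cfsg.Agent.KO
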