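import Cfsg.Agent.KO.W

/-!
# Transvections induced by signed permutations; standard forms
-/

set_option autoImplicit false
set_option linter.unusedSectionVars false

namespace Cfsg.Agent.KO

open Subgroup Equiv

namespace W

variable {C : Type*} [DecidableEq C]

/-- The sign change at two places. -/
def ee (c d : C) : W C := E (Pi.single c 1 + Pi.single d 1)

@[simp] theorem ee_s (c d : C) : (ee c d).s = 1 := rfl

theorem ee_e (c d x : C) :
    (ee c d).e x = (if x = c then 1 else 0) + (if x = d then 1 else 0) := by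
  simp [ee, Pi.single_apply]

theorem ee_e_left {c d : C} (h : c ≠ d) : (ee c d).e c = 1 := by simp [ee_e, h]

theorem ee_e_right {c d : C} (h : c ≠ d) : (ee c d).e d = 1 := by simp [ee_e, h.symm]

theorem ee_e_other {c d x : C} (h : x ≠ c) (h' : x ≠ d) : (ee c d).e x = 0 := by
  simp [ee_e, h, h']

theorem ee_comm (c d : C) : ee c d = ee d c := by simp [ee, add_comm]

theorem ee_ne_one {c d : C} (h : c ≠ d) : ee c d ≠ 1 := fun e => by
  have := ee_e_left h
  rw [e] at this
  exact absurd this (by simp)

variable {μ : Perm C} {hμ : ∀ c, μ (μ c) = c}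

theorem mu_eq_iff (hμ : ∀ c, μ (μ c) = c) {x y : C} : μ x = y ↔ x = μ y :=
  ⟨fun h => by rw [← h, hμ], fun h => by rw [h, hμ]⟩

theorem ee_mem_pair (c : C) : ee c (μ c) ∈ Am μ hμ := by
  refine E_mem_Am.mpr fun x => ?_
  simp only [Pi.add_apply, Pi.single_apply, mu_eq_iff hμ, hμ]
  exact add_comm _ _

theorem single_mem {c : C} (hc : μ c = c) : E (Pi.single c 1) ∈ Am μ hμ := by
  refine E_mem_Am.mpr fun x => ?_
  simp only [Pi.single_apply, mu_eq_iff hμ, hc]

theorem ee_mem_fix {c d : C} (hc : μ c = c) (hd : μ d = d) : ee c d ∈ Am μ hμ := by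
  rw [ee, ← E_mul]
  exact mul_mem (single_mem hc) (single_mem hd)

theorem swap_mem (c : C) : P (swap c (μ c)) ∈ Am μ hμ := by
  intro x
  refine ⟨?_, rfl⟩
  simp only [P_s, swap_apply_def]
  split_ifs with h1 h2
  · right; rw [h1]
  · right; rw [h2, hμ]
  · left; rfl

/-- The two kinds of transvections. -/
def Kind (μ : Perm C) (c d : C) (a : W C) : Prop :=
  (μ c = d ∧ a.s c = c) ∨ (μ c = c ∧ μ d = d ∧ a.e c = a.e d)

theorem tv_class {w c0 : W C} (hc0A : c0 ∈ Am μ hμ)
    (hact : ∀ a ∈ Am μ hμ, w * a * w⁻¹ = a ∨ w * a * w⁻¹ = a * c0)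
    (hne : ∃ a ∈ Am μ hμ, w * a * w⁻¹ ≠ a) :
    ∃ c d, c ≠ d ∧ c0 = ee c d ∧ (μ c = d ∨ (μ c = c ∧ μ d = d)) ∧
      ∀ a ∈ Am μ hμ, (w * a * w⁻¹ = a ↔ Kind μ c d a) := by
  by_cases h1 : ∃ c, μ c = c ∧ w.s c ≠ c
  · obtain ⟨c, hc, hsc⟩ := h1
    have e1 : w * E (Pi.single c 1) * w⁻¹ = E (Pi.single (w.s c) 1) := by
      rw [conj_E]
      congr 1
      funext x
      simp only [Pi.single_apply, Perm.inv_eq_iff_eq]
    have e2 : c0 = ee c (w.s c) := by
      rcases hact _ (single_mem hc) with e | e
      · rw [e1] at e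
        have := congrArg (fun x : W C => x.e c) e
        simp [hsc.symm] at this
      · rw [e1] at e
        rw [ee, ← E_mul, e, ← mul_assoc, Am_sq (single_mem (hμ := hμ) hc), one_mul]
    have e3 : μ (w.s c) = w.s c := by
      have := (hc0A (w.s c)).2
      rw [e2, ee_e_right hsc.symm] at this
      by_contra h
      rw [ee_e_other (fun h' => hsc (by rw [mu_eq_iff hμ, hc] at h'; exact h')) h] at this
      exact absurd this (by decide)
    refine ⟨c, w.s c, hsc.symm, e2, Or.inr ⟨hc, e3⟩, fun a ha => ?_⟩
    have e4 : a.s c = c := by rcases (ha c).1 with e | e <;> simp [e, hc]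
    have e5 : (w * a * w⁻¹).e (w.s c) = a.e c := by
      rw [conj_e, e4, add_assoc, zm_add_self, add_zero]
    constructor
    · intro h
      rw [h] at e5
      exact Or.inr ⟨hc, e3, e5.symm⟩
    · rintro (⟨h, -⟩ | ⟨-, -, h⟩)
      · exact absurd (hc.symm.trans h).symm hsc
      · refine (hact a ha).resolve_right fun h' => ?_
        rw [h', mul_e, e2, ee_e_right hsc.symm, ee_s, Perm.one_apply, ← h] at e5
        simp at e5
  · push Not at h1
    have st1 : ∀ c, w.s c = c ∨ w.s c = μ c := by
      intro c
      by_cases hc : μ c = c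
      · exact Or.inl (h1 c hc)
      by_contra hn
      push Not at hn
      have hcc : w.s (μ c) ≠ w.s c := fun e => hc (w.s.injective e)
      have e1 : c0.s = 1 := by
        rcases hact _ (ee_mem_pair (hμ := hμ) c) with e | e
        · have := congrArg (fun x : W C => x.e (w.s c)) e
          simp only [conj_e, ee_s, Perm.one_apply] at this
          rw [ee_e_left (Ne.symm hc), ee_e_other hn.1 hn.2, add_assoc, zm_add_self] at this
          simp at this
        · have := congrArg W.s e
          simpa [conj_s] using this.symm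
      have e2 : (w * P (swap c (μ c)) * w⁻¹).s = swap c (μ c) := by
        rcases hact _ (swap_mem (hμ := hμ) c) with e | e <;> rw [e] <;> simp [e1]
      have := congrArg (fun x : Perm C => x (w.s c)) e2
      simp only [conj_s, P_s, Perm.mul_apply, Perm.inv_def, symm_apply_apply, swap_apply_left,
        swap_apply_of_ne_of_ne hn.1 hn.2] at this
      exact hcc this
    have st2 : ∀ c, w.s (μ c) = μ (w.s c) := by
      intro c
      rcases st1 c with e | e <;> rcases st1 (μ c) with e' | e'
      · rw [e, e']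
      · rw [hμ] at e'
        have : μ c = c := w.s.injective (by rw [e', e])
        rw [e', e, this]
      · have : μ c = c := w.s.injective (by rw [e', e])
        rw [e', e, hμ, this]
      · rw [e', e]
    have st3 : ∀ a ∈ Am μ hμ, (w * a * w⁻¹).s = a.s := by
      intro a ha
      ext c
      obtain ⟨c, rfl⟩ := w.s.surjective c
      simp only [conj_s, Perm.mul_apply, Perm.inv_def, symm_apply_apply]
      rcases st1 c with e | e <;> rcases (ha c).1 with e' | e'
      · rw [e, e', e]
      · rw [e, e', st2, e]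
      · rw [e', e, Am_s_mu ha, e']
      · rw [e', st2, e, Am_s_mu ha, e']
    have st4 : ∀ a ∈ Am μ hμ, ∀ c, a.e (w.s c) = a.e c := by
      intro a ha c
      rcases st1 c with e | e <;> rw [e]
      exact (ha c).2
    obtain ⟨a0, ha0, hne⟩ := hne
    obtain ⟨c, hc⟩ : ∃ c, w.e c ≠ w.e (a0.s c) := by
      by_contra hn
      push Not at hn
      apply hne
      refine W.ext (funext fun c => ?_) (st3 a0 ha0)
      obtain ⟨c, rfl⟩ := w.s.surjective c
      rw [conj_e, st4 a0 ha0, ← hn, add_assoc, zm_add_self, add_zero]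
    have e1 : a0.s c = μ c := (ha0 c).1.resolve_left fun e => hc (by rw [e])
    rw [e1] at hc
    have hcc : c ≠ μ c := fun e => hc (by rw [← e])
    have hw1 : w.e c + w.e (μ c) = 1 := by
      revert hc; generalize w.e c = x; generalize w.e (μ c) = y; revert x y; decide
    have e2 : ∀ x, (ee c (μ c)).e (w.s x) = (ee c (μ c)).e x := st4 _ (ee_mem_pair c)
    have e3 : w * P (swap c (μ c)) * w⁻¹ = P (swap c (μ c)) * ee c (μ c) := by
      refine W.ext (funext fun x => ?_) (by rw [st3 _ (swap_mem c)]; simp)
      obtain ⟨x, rfl⟩ := w.s.surjective x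
      rw [conj_e, mul_e, e2]
      simp only [P_e, Pi.zero_apply, zero_add, add_zero, P_s, swap_apply_def]
      split_ifs with h1 h2
      · rw [h1, hw1, ee_e_left hcc]
      · rw [h2, add_comm, hw1, ee_e_right hcc]
      · rw [zm_add_self, ee_e_other h1 h2]
    have e4 : c0 = ee c (μ c) := by
      rcases hact _ (swap_mem (hμ := hμ) c) with e | e <;> rw [e3] at e
      · exact absurd (mul_left_cancel (e.trans (mul_one _).symm)) (ee_ne_one hcc)
      · exact (mul_left_cancel e).symm
    refine ⟨c, μ c, hcc, e4, Or.inl rfl, fun a ha => ?_⟩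
    have e5 := conj_e w a c
    constructor
    · intro h
      rw [h, st4 a ha] at e5
      refine Or.inl ⟨rfl, (ha c).1.resolve_right fun e => ?_⟩
      rw [e, add_assoc, hw1] at e5
      simp at e5
    · rintro (⟨-, h⟩ | ⟨h, -⟩)
      · refine (hact a ha).resolve_right fun h' => ?_
        rw [h', mul_e, e4, e2, ee_e_left hcc, ee_s, Perm.one_apply, st4 a ha, h, add_assoc,
          zm_add_self] at e5
        simp at e5
      · exact absurd h.symm hcc

/-- The transvection induced by a sign change at one end of a pair. -/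
theorem conj_single (c : C) {a : W C} (ha : a ∈ Am μ hμ) :
    E (Pi.single c 1) * a * (E (Pi.single c 1))⁻¹ =
      if a.s c = c then a else a * ee c (μ c) := by
  refine W.ext (funext fun x => ?_) (by split_ifs <;> simp)
  have := conj_e (E (Pi.single c 1)) a x
  simp only [E_s, Perm.one_apply, E_e] at this
  rw [this]
  have h1 : a.s x = c ↔ x = a.s c :=
    ⟨fun h => by rw [← h, Am_ss ha], fun h => by rw [h, Am_ss ha]⟩
  split_ifs with h
  · simp only [Pi.single_apply, h1, h, add_assoc, zm_add_self, add_zero]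
  · have h2 := (ha c).1.resolve_left h
    simp only [Pi.single_apply, h1, h2, mul_e, ee_e, ee_s, Perm.one_apply]
    ring

/-- The transvection induced by a swap of two fixed points. -/
theorem conj_swap {c d : C} (hc : μ c = c) (hd : μ d = d) {a : W C} (ha : a ∈ Am μ hμ) :
    P (swap c d) * a * (P (swap c d))⁻¹ = if a.e c = a.e d then a else a * ee c d := by
  have e1 : a.s c = c := by rcases (ha c).1 with e | e <;> simp [e, hc]
  have e2 : a.s d = d := by rcases (ha d).1 with e | e <;> simp [e, hd]
  have e3 : swap c d * a.s * (swap c d)⁻¹ = a.s := by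
    rw [mul_inv_eq_iff_eq_mul, mul_swap_eq_swap_mul, e1, e2]
  refine W.ext (funext fun x => ?_) (by split_ifs <;> simpa using e3)
  obtain ⟨x, rfl⟩ := (swap c d).surjective x
  have := conj_e (P (swap c d)) a x
  simp only [P_s, P_e, Pi.zero_apply, add_zero] at this
  rw [this]
  by_cases hcd : c = d
  · subst hcd; simp
  split_ifs with h
  · simp only [swap_apply_def]
    split_ifs with h1 h2
    · rw [h1, h]
    · rw [h2, h]
    · rfl
  · have h3 : ∀ x y : ZMod 2, x ≠ y → x = 1 + y := by decide
    simp only [swap_apply_def, mul_e, ee_s, Perm.one_apply]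
    split_ifs with h1 h2
    · rw [h1, ee_e_right hcd]; exact h3 _ _ h
    · rw [h2, ee_e_left hcd]; exact h3 _ _ (Ne.symm h)
    · rw [ee_e_other h1 h2, zero_add]

theorem eq_z_of_central [Nontrivial C] {w : W C} (hw : ∀ a, a * w = w * a) (h1 : w ≠ 1) :
    w = z := by
  have hs : w.s = 1 := by
    ext c
    have := congrArg (fun x : W C => x.e c) (hw (E (Pi.single (w.s c) 1)))
    simp only [mul_e, E_e, E_s, Perm.one_apply, Pi.single_eq_same] at this
    rw [add_comm, add_left_inj] at this
    by_contra h
    rw [Pi.single_eq_of_ne (fun e : c = w.s c => h e.symm)] at this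
    exact absurd this (by decide)
  have he : ∀ c d, w.e c = w.e d := by
    intro c d
    have := congrArg (fun x : W C => x.e c) (hw (P (swap c d)))
    simpa using this
  refine W.ext (funext fun c => ?_) hs
  rcases zm_cases (w.e c) with h | h
  · exact absurd (W.ext (funext fun d => by rw [he d c, h]; rfl) hs) h1
  · exact h

theorem z_comm (a : W C) : a * z = z * a := by
  ext c <;> simp [z, add_comm]

/-! ### Characters -/

section Char

variable [Fintype C]

/-- `ZMod 2 → ℤˣ`. -/
def u (x : ZMod 2) : ℤˣ := if x = 0 then 1 else -1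

theorem u_add (x y : ZMod 2) : u (x + y) = u x * u y := by revert x y; decide

theorem u_zero : u 0 = 1 := rfl

theorem u_one : u 1 = -1 := rfl

/-- The weight mod `2`. -/
def wt (a : W C) : ZMod 2 := ∑ c, a.e c

theorem wt_mul (a b : W C) : wt (a * b) = wt a + wt b := by
  simp only [wt, mul_e, Finset.sum_add_distrib]
  rw [add_comm, Equiv.sum_comp b.s a.e]

/-- The sign of the permutation part. -/
def χ₁ : W C →* ℤˣ := Perm.sign.comp bar

/-- The product of the signs. -/
def χ₂ : W C →* ℤˣ := MonoidHom.mk' (fun a => u (wt a)) fun a b => by rw [wt_mul, u_add]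

theorem χ₁_apply (a : W C) : χ₁ a = Perm.sign a.s := rfl

theorem χ₂_apply (a : W C) : χ₂ a = u (wt a) := rfl

theorem wt_ee (c d : C) : wt (ee c d) = 0 := by
  simp [wt, ee, Finset.sum_add_distrib, zm_add_self]

theorem wt_single (c : C) : wt (E (Pi.single c 1)) = 1 := by
  simp [wt]

theorem isConj_of_card_support {σ τ : Perm C} (hσ : σ * σ = 1) (hτ : τ * τ = 1)
    (h : σ.support.card = τ.support.card) : IsConj σ τ := by
  rw [Perm.isConj_iff_cycleType_eq]
  have : Fact (Nat.Prime 2) := ⟨Nat.prime_two⟩
  have e1 := Perm.cycleType_of_pow_prime_eq_one (σ := σ) (p := 2) (by rw [pow_two, hσ])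
  have e2 := Perm.cycleType_of_pow_prime_eq_one (σ := τ) (p := 2) (by rw [pow_two, hτ])
  have h1 := Perm.sum_cycleType σ
  have h2 := Perm.sum_cycleType τ
  rw [e1] at h1
  rw [e2] at h2
  simp only [Multiset.sum_replicate, smul_eq_mul] at h1 h2
  rw [e1, e2, show σ.cycleType.card = τ.cycleType.card by omega]

theorem exists_conj_E {η η' : C → ZMod 2}
    (h : (Finset.univ.filter fun c => η c = 1).card = (Finset.univ.filter fun c => η' c = 1).card) :
    ∃ w : W C, w * E η * w⁻¹ = E η' := by
  obtain ⟨e⟩ : Nonempty ({c // η c = 1} ≃ {c // η' c = 1}) := by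
    rw [← Fintype.card_eq, Fintype.card_subtype, Fintype.card_subtype, h]
  refine ⟨P e.extendSubtype, ?_⟩
  rw [conj_E]
  congr 1
  funext c
  obtain ⟨c, rfl⟩ := e.extendSubtype.surjective c
  simp only [P_s, Perm.inv_def, symm_apply_apply]
  by_cases hc : η c = 1
  · rw [hc, e.extendSubtype_mem c hc]
  · have := e.extendSubtype_not_mem c hc
    rw [(zm_cases _).resolve_right hc, (zm_cases _).resolve_right this]

end Char

/-! ### Standard forms -/

section Std

variable {B : Type*} [Fintype B] [DecidableEq B]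

theorem mu_invol (I : Finset B) : Function.Involutive
    (fun x : B × ZMod 2 => if x.1 ∈ I then (x.1, x.2 + 1) else x) := by
  rintro ⟨b, x⟩
  by_cases h : b ∈ I <;> simp [h, add_assoc, zm_add_self]

/-- The standard involution moving the pairs in `I`. -/
def mu (I : Finset B) : Perm (B × ZMod 2) := (mu_invol I).toPerm _

theorem mu_apply (I : Finset B) (x : B × ZMod 2) :
    mu I x = if x.1 ∈ I then (x.1, x.2 + 1) else x := rfl

theorem mu_mu (I : Finset B) (x : B × ZMod 2) : mu I (mu I x) = x := mu_invol I x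

theorem mu_fst (I : Finset B) (x : B × ZMod 2) : (mu I x).1 = x.1 := by
  rw [mu_apply]; split_ifs <;> rfl

theorem mu_eq_self {I : Finset B} {x : B × ZMod 2} : mu I x = x ↔ x.1 ∉ I := by
  rw [mu_apply]
  split_ifs with h
  · simp [h, Prod.ext_iff]
  · simp [h]

theorem mu_zero {I : Finset B} {b : B} (hb : b ∈ I) : mu I (b, 0) = (b, 1) := by
  simp [mu_apply, hb]

theorem mu_empty : mu (∅ : Finset B) = 1 := by
  ext x <;> simp [mu_apply]

/-- The standard maximal elementary abelian subgroups. -/
def A (I : Finset B) : Subgroup (W (B × ZMod 2)) := Am (mu I) (mu_mu I)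

/-- The standard elements of even weight. -/
def y (J : Finset B) : W (B × ZMod 2) := E fun x => if x.1 ∈ J then 1 else 0

theorem y_mem (I J : Finset B) : y J ∈ A I := E_mem_Am.mpr fun c => by rw [mu_fst]

theorem y_empty : y (∅ : Finset B) = 1 := by ext x <;> simp [y]

theorem y_univ : y (Finset.univ : Finset B) = z := by ext x <;> simp [y, z]

theorem y_insert {b : B} {J : Finset B} (hb : b ∉ J) : y (insert b J) = y {b} * y J := by
  simp only [y, E_mul]
  congr 1
  funext x
  by_cases h : x.1 = b
  · simp [h, hb]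
  · simp [h]

theorem y_single (b : B) : y {b} = ee (b, 0) (b, 1) := by
  refine W.ext (funext ?_) rfl
  rintro ⟨b', x⟩
  by_cases h : b' = b
  · rcases zm_cases x with rfl | rfl <;> simp [y, ee_e, h]
  · simp [y, ee_e, h]

theorem y_injective : Function.Injective (y : Finset B → W (B × ZMod 2)) := by
  intro J J' h
  ext b
  have := congrArg (fun a : W (B × ZMod 2) => a.e (b, 0)) h
  simp only [y, E_e] at this
  by_cases h1 : b ∈ J <;> by_cases h2 : b ∈ J' <;> simp_all

theorem mem_A_empty {a : W (B × ZMod 2)} : a ∈ A ∅ ↔ a.s = 1 := by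
  simp only [A, mem_Am, mu_empty, Perm.one_apply, or_self, and_true]
  exact ⟨fun h => Equiv.ext h, fun h c => by rw [h]; rfl⟩

theorem card_A (I : Finset B) : 2 ^ Fintype.card (B × ZMod 2) ≤ Nat.card (A I) := by
  have hinv : ∀ g : B × ZMod 2 → ZMod 2, Function.Involutive
      (fun x : B × ZMod 2 => if x.1 ∈ I then (x.1, x.2 + g (x.1, 1)) else x) := by
    rintro g ⟨b, x⟩
    by_cases h : b ∈ I <;> simp [h, add_assoc, zm_add_self]
  let f : (B × ZMod 2 → ZMod 2) → A I := fun g =>
    ⟨⟨fun x => if x.1 ∈ I then g (x.1, 0) else g x, (hinv g).toPerm _⟩, by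
      rintro ⟨b, x⟩
      by_cases h : b ∈ I
      · rcases zm_cases (g (b, 1)) with e | e <;> simp [mu_apply, h, e]
      · simp [mu_apply, h]⟩
  have hf : Function.Injective f := by
    intro g g' h
    funext ⟨b, x⟩
    have h1 := congrArg (fun a : A I => a.1.e (b, x)) h
    have h2 := congrArg (fun a : A I => a.1.s (b, x)) h
    by_cases hb : b ∈ I
    · simp only [f, hb, if_true, Function.Involutive.coe_toPerm, Prod.mk.injEq, true_and,
        add_right_inj] at h1 h2
      rcases zm_cases x with rfl | rfl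
      · exact h1
      · exact h2
    · simpa [f, hb] using h1
  have := Nat.card_le_card_of_injective f hf
  rwa [Nat.card_fun, Nat.card_zmod, Nat.card_eq_fintype_card] at this

theorem card_filter_fst (I : Finset B) :
    (Finset.univ.filter fun x : B × ZMod 2 => x.1 ∈ I).card = 2 * I.card := by
  have : (Finset.univ.filter fun x : B × ZMod 2 => x.1 ∈ I) = I ×ˢ Finset.univ := by
    ext x; simp
  rw [this, Finset.card_product, Finset.card_univ, ZMod.card, mul_comm]

theorem card_support_mu (I : Finset B) : (mu I).support.card = 2 * I.card := by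
  rw [← card_filter_fst]
  congr 1
  ext x
  simp [mu_eq_self]

theorem exists_std {μ : Perm (B × ZMod 2)} (hμ : ∀ c, μ (μ c) = c) :
    ∃ (I : Finset B) (s : Perm (B × ZMod 2)), ∀ c, μ (s c) = s (mu I c) := by
  have h1 : μ * μ = 1 := Equiv.ext hμ
  obtain ⟨k, hk⟩ := Perm.two_dvd_card_support (σ := μ) (by rw [pow_two, h1])
  have h2 : μ.support.card ≤ 2 * Fintype.card B := by
    have := Finset.card_le_univ μ.support
    rwa [Fintype.card_prod, ZMod.card, mul_comm] at this
  obtain ⟨I, -, hI⟩ := Finset.exists_subset_card_eq (s := (Finset.univ : Finset B)) (n := k)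
    (by rw [Finset.card_univ]; omega)
  obtain ⟨s, hs⟩ := isConj_iff.mp (isConj_of_card_support (σ := mu I) (Equiv.ext (mu_mu I)) h1
    (by rw [card_support_mu, hk, hI]))
  refine ⟨I, s, fun c => ?_⟩
  rw [← hs]; simp

theorem wt_eq (a : W (B × ZMod 2)) : wt a = ∑ b, (a.e (b, 0) + a.e (b, 1)) := by
  rw [wt, Fintype.sum_prod_type]
  exact Finset.sum_congr rfl fun b _ => Fin.sum_univ_two _

theorem exists_conj_y {η : B × ZMod 2 → ZMod 2} (h : wt (E η) = 0) :
    ∃ (J : Finset B) (w : W (B × ZMod 2)), w * E η * w⁻¹ = y J := by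
  have h1 : (((Finset.univ.filter fun c => η c = 1).card : ℕ) : ZMod 2) = 0 := by
    rw [← h, wt, Finset.card_filter, Nat.cast_sum]
    refine Finset.sum_congr rfl fun c _ => ?_
    rcases zm_cases (η c) with e | e <;> simp [e]
  obtain ⟨k, hk⟩ := (ZMod.natCast_eq_zero_iff _ _).mp h1
  have h2 : (Finset.univ.filter fun c => η c = 1).card ≤ 2 * Fintype.card B := by
    have := Finset.card_le_univ (Finset.univ.filter fun c => η c = 1)
    rwa [Fintype.card_prod, ZMod.card, mul_comm] at this
  obtain ⟨J, -, hJ⟩ := Finset.exists_subset_card_eq (s := (Finset.univ : Finset B)) (n := k)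
    (by rw [Finset.card_univ]; omega)
  refine ⟨J, exists_conj_E ?_⟩
  rw [hk, ← hJ, ← card_filter_fst]
  congr 1
  ext x
  simp

theorem exists_conj_y_of_card {J J' : Finset B} (h : J.card = J'.card) :
    ∃ w : W (B × ZMod 2), w * y J * w⁻¹ = y J' := by
  apply exists_conj_E
  have : ∀ J : Finset B, (Finset.univ.filter fun c : B × ZMod 2 =>
      (if c.1 ∈ J then (1 : ZMod 2) else 0) = 1).card = 2 * J.card := by
    intro J
    rw [← card_filter_fst]
    congr 1
    ext x
    simp
  rw [this, this, h]

end Std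

end W

end Cfsg.Agent.KO
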